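import Cfsg.Agent.ChevalleyStructure.SparseEng

/-!
# S5925, box G: root elements of a Chevalley datum as lists of elementary operations (helper671)

* `opsI D r` : the operations `(src, dst, m, p)` (codes `k < rank` for `h_k`, `rank + s` for `e_s`);
* `x_apply` : `x_r(t) v = v + ∑ m t ^ p v(src) b(dst)`.
-/

set_option autoImplicit false

namespace Cfsg.Agent.H671.E83

open Cfsg Cfsg.Lie Cfsg.Agent.ChevalleyStructure.SparseEng

variable (D : ChevalleyDatum)

/-- the operations of `x_r(t)` -/
def opsI (r : ℕ) : List (ℕ × ℕ × ℤ × ℕ) :=
  ((List.range D.rank).map fun i => (i, D.rank + r, -((D.cartanSR.getD i #[]).getD r 0), 1)) ++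
    (((D.rank + D.negIdx.getD r 0, D.rank + r, (-1 : ℤ), 2) ::
      ((List.range D.rank).map fun i => (D.rank + D.negIdx.getD r 0, i, (D.coroot.getD r #[]).getD i 0, 1))) ++
    ((D.chain.getD r #[]).toList.flatMap fun e =>
      (e.2.toList.zipIdx).map fun q => (D.rank + e.1, D.rank + q.1.1, q.1.2, q.2 + 1)))

/-- the conditions -/
def okR (r : ℕ) : Bool :=
  Nat.blt r D.nroots && !(Nat.beq (D.negIdx.getD r 0) r) &&
    (D.chain.getD r #[]).toList.all fun e => !(Nat.beq e.1 r) && !(Nat.beq e.1 (D.negIdx.getD r 0))

variable {D}
variable {F : Type*} [Field F]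

/-- the coordinate with a given code -/
def look (v : D.Idx → F) (k : ℕ) : F :=
  if h : k < D.rank then v (Sum.inl ⟨k, h⟩) else if h' : k - D.rank < D.nroots then v (Sum.inr ⟨k - D.rank, h'⟩) else 0

theorem look_add (v w : D.Idx → F) (k : ℕ) : look (v + w) k = look v k + look w k := by
  unfold look
  split_ifs <;> simp

theorem look_smul (c : F) (v : D.Idx → F) (k : ℕ) : look (c • v) k = c * look v k := by
  unfold look
  split_ifs <;> simp

theorem look_bvec {k j : ℕ} (hk : k < D.rank + D.nroots) :
    look (bvec D F j) k = if k = j then 1 else 0 := by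
  unfold look
  by_cases h : k < D.rank
  · rw [dif_pos h]
    rfl
  · rw [dif_neg h, dif_pos (by omega)]
    show (if D.rank + (k - D.rank) = j then (1 : F) else 0) = _
    rw [Nat.add_sub_cancel' (not_lt.1 h)]

/-- the value of an operation -/
def opV (t : F) (v : D.Idx → F) (q : ℕ × ℕ × ℤ × ℕ) : D.Idx → F :=
  (((q.2.2.1 : ℤ) : F) * t ^ q.2.2.2 * look v q.1) • bvec D F q.2.1

/-- all operations -/
def appI (r : ℕ) (t : F) (v : D.Idx → F) : D.Idx → F := v + ((opsI D r).map (opV t v)).sum

theorem sum_opV_add (t : F) (v w : D.Idx → F) (l : List (ℕ × ℕ × ℤ × ℕ)) :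
    (l.map (opV t (v + w))).sum = (l.map (opV t v)).sum + (l.map (opV t w)).sum := by
  induction l with
  | nil => simp
  | cons q l ih =>
    rw [List.map_cons, List.sum_cons, List.map_cons, List.sum_cons, List.map_cons, List.sum_cons, ih]
    have : opV t (v + w) q = opV t v q + opV t w q := by
      unfold opV
      rw [look_add, mul_add, add_smul]
    rw [this]
    abel

theorem sum_opV_smul (t c : F) (v : D.Idx → F) (l : List (ℕ × ℕ × ℤ × ℕ)) :
    (l.map (opV t (c • v))).sum = c • (l.map (opV t v)).sum := by
  induction l with
  | nil => simp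
  | cons q l ih =>
    rw [List.map_cons, List.sum_cons, List.map_cons, List.sum_cons, ih, smul_add]
    have : opV t (c • v) q = c • opV t v q := by
      unfold opV
      rw [look_smul, smul_smul]
      congr 1
      ring
    rw [this]

/-- `appI` as a linear map -/
def appL (r : ℕ) (t : F) : (D.Idx → F) →ₗ[F] (D.Idx → F) where
  toFun := appI r t
  map_add' v w := by
    unfold appI
    rw [sum_opV_add]
    abel
  map_smul' c v := by
    unfold appI
    rw [sum_opV_smul, smul_add]
    rfl

theorem sum_range_ite {M : Type*} [AddCommMonoid M] (n k : ℕ) (f : ℕ → M) :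
    ((List.range n).map fun i => if i = k then f i else 0).sum = if k < n then f k else 0 := by
  induction n with
  | zero => simp
  | succ n ih =>
    rw [List.range_succ, List.map_append, List.sum_append, ih]
    by_cases h1 : k < n
    · have h2 : n ≠ k := by omega
      simp [h1, h2, Nat.lt_succ_of_lt h1]
    · by_cases h3 : n = k
      · subst h3
        simp
      · have h4 : ¬ k < n + 1 := by omega
        simp [h1, h3, h4]

/-- the operations on a basis vector -/
theorem sum_opV_bvec (t : F) {k : ℕ} (hk : k < D.rank + D.nroots) {l : List (ℕ × ℕ × ℤ × ℕ)} :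
    (l.map (opV t (bvec D F k))).sum = (l.map fun q => if q.1 = k then
      (((q.2.2.1 : ℤ) : F) * t ^ q.2.2.2) • bvec D F q.2.1 else 0).sum := by
  congr 1
  apply List.map_congr_left
  intro q hq
  unfold opV
  by_cases h : q.1 = k
  · rw [if_pos h, h, look_bvec hk, if_pos rfl, mul_one]
  · rw [if_neg h]
    by_cases h2 : q.1 < D.rank + D.nroots
    · rw [look_bvec h2, if_neg h, mul_zero, zero_smul]
    · have : look (bvec D F k) q.1 = 0 := by
        unfold look
        rw [dif_neg (by omega), dif_neg (by omega)]
      rw [this, mul_zero, zero_smul]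

theorem sum_flatMap' {α β M : Type*} [AddCommMonoid M] (l : List α) (f : α → List β) (g : β → M) :
    ((l.flatMap f).map g).sum = (l.map fun a => ((f a).map g).sum).sum := by
  induction l with
  | nil => simp
  | cons a l ih => simp [ih]

theorem sum_filter' {α M : Type*} [AddCommMonoid M] (l : List α) (p : α → Prop) [DecidablePred p] (g : α → M) :
    ((l.filter fun a => decide (p a)).map g).sum = (l.map fun a => if p a then g a else 0).sum := by
  induction l with
  | nil => simp
  | cons a l ih =>
    by_cases h : p a
    · simp [h, ih]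
    · simp [h, ih]

/-- the part of the Cartan columns -/
theorem partA (t : F) (r k : ℕ) (hk : k < D.rank + D.nroots) :
    (((List.range D.rank).map fun i => (i, D.rank + r, -((D.cartanSR.getD i #[]).getD r 0), 1)).map
      (opV t (bvec D F k))).sum = if k < D.rank then
        (((-((D.cartanSR.getD k #[]).getD r 0) : ℤ) : F) * t) • bvec D F (D.rank + r) else 0 := by
  rw [sum_opV_bvec t hk, List.map_map]
  have : ((fun q : ℕ × ℕ × ℤ × ℕ => if q.1 = k then (((q.2.2.1 : ℤ) : F) * t ^ q.2.2.2) • bvec D F q.2.1 else 0) ∘
      fun i => (i, D.rank + r, -((D.cartanSR.getD i #[]).getD r 0), 1)) =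
      fun i => if i = k then (((-((D.cartanSR.getD i #[]).getD r 0) : ℤ) : F) * t) • bvec D F (D.rank + r) else 0 := by
    funext i
    simp only [Function.comp, pow_one]
  rw [this, sum_range_ite]

/-- the part of the column of the negative root -/
theorem partB (t : F) (r k : ℕ) (hk : k < D.rank + D.nroots) :
    ((((D.rank + D.negIdx.getD r 0, D.rank + r, (-1 : ℤ), 2) ::
      ((List.range D.rank).map fun i => (D.rank + D.negIdx.getD r 0, i, (D.coroot.getD r #[]).getD i 0, 1)))).map
      (opV t (bvec D F k))).sum = if D.rank + D.negIdx.getD r 0 = k then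
        (((-1 : ℤ) : F) * t ^ 2) • bvec D F (D.rank + r) +
          ((List.range D.rank).map fun i => ((((D.coroot.getD r #[]).getD i 0 : ℤ) : F) * t) • bvec D F i).sum else 0 := by
  rw [sum_opV_bvec t hk, List.map_cons, List.sum_cons, List.map_map]
  by_cases h : D.rank + D.negIdx.getD r 0 = k
  · simp only [if_pos h, Function.comp_def, pow_one]
  · simp only [if_neg h, Function.comp_def]
    simp

/-- the part of the chains -/
theorem partC (t : F) (r k : ℕ) (hk : k < D.rank + D.nroots) :
    (((D.chain.getD r #[]).toList.flatMap fun e =>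
      (e.2.toList.zipIdx).map fun q => (D.rank + e.1, D.rank + q.1.1, q.1.2, q.2 + 1)).map
      (opV t (bvec D F k))).sum = (((D.chain.getD r #[]).toList.filter (fun e => decide (D.rank + e.1 = k))).map fun e =>
        ((e.2.toList.zipIdx).map fun q => (((q.1.2 : ℤ) : F) * t ^ (q.2 + 1)) • bvec D F (D.rank + q.1.1)).sum).sum := by
  rw [sum_opV_bvec t hk, sum_flatMap', sum_filter']
  congr 1
  apply List.map_congr_left
  intro e _
  rw [List.map_map]
  by_cases h : D.rank + e.1 = k
  · simp only [if_pos h, Function.comp_def]
  · simp only [if_neg h, Function.comp_def]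
    simp

theorem appI_bvec (t : F) {r : ℕ} (h : okR D r = true) {k : ℕ} (hk : k < D.rank + D.nroots) :
    appI r t (bvec D F k) = evalAct t (act D r k) := by
  unfold okR at h
  rw [Bool.and_eq_true, Bool.and_eq_true, Nat.blt_eq, List.all_eq_true] at h
  obtain ⟨⟨hr, hn⟩, hc⟩ := h
  have hn' : D.negIdx.getD r 0 ≠ r := by
    intro h0
    rw [h0] at hn
    simp at hn
  have hc' : ∀ e ∈ (D.chain.getD r #[]).toList, e.1 ≠ r ∧ e.1 ≠ D.negIdx.getD r 0 := by
    intro e he
    have h1 := hc e he
    rw [Bool.and_eq_true] at h1
    refine ⟨fun h2 => ?_, fun h2 => ?_⟩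
    · rw [h2] at h1
      simp at h1
    · rw [← h2] at h1
      simp at h1
  unfold appI opsI
  rw [List.map_append, List.sum_append, List.map_append, List.sum_append, partA t r k hk, partB t r k hk, partC t r k hk]
  unfold act
  rw [if_pos hr]
  by_cases h1 : k < D.rank
  · rw [if_pos h1, if_pos h1, if_neg (by omega)]
    have h2 : ((D.chain.getD r #[]).toList.filter (fun e => decide (D.rank + e.1 = k))) = [] := by
      rw [List.filter_eq_nil_iff]
      intro e _
      simp only [decide_eq_true_eq]
      omega
    rw [h2]
    simp [evalAct]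
  · rw [if_neg h1, if_neg h1, if_pos hk]
    by_cases h2 : k - D.rank = r
    · rw [if_pos h2, if_neg (by omega)]
      have h3 : ((D.chain.getD r #[]).toList.filter (fun e => decide (D.rank + e.1 = k))) = [] := by
        rw [List.filter_eq_nil_iff]
        intro e he
        have := (hc' e he).1
        simp only [decide_eq_true_eq]
        omega
      rw [h3]
      simp [evalAct]
    · rw [if_neg h2]
      by_cases h3 : k - D.rank = D.negIdx.getD r 0
      · rw [if_pos h3, if_pos (by omega)]
        have h4 : ((D.chain.getD r #[]).toList.filter (fun e => decide (D.rank + e.1 = k))) = [] := by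
          rw [List.filter_eq_nil_iff]
          intro e he
          have := (hc' e he).2
          simp only [decide_eq_true_eq]
          omega
        rw [h4]
        simp only [evalAct, List.map_cons, List.sum_cons, List.map_map, Function.comp_def, pow_one, pow_zero, mul_one,
          Int.cast_one, one_smul, List.map_nil, List.sum_nil, add_zero, zero_add]
      · rw [if_neg h3, if_neg (by omega)]
        have h4 : ((D.chain.getD r #[]).toList.filter (fun e => decide (D.rank + e.1 = k))) =
            ((D.chain.getD r #[]).toList.filter (fun e => decide (e.1 = k - D.rank))) := by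
          apply List.filter_congr
          intro e _
          congr 1
          apply propext
          omega
        rw [h4]
        simp only [evalAct, List.map_cons, List.sum_cons, pow_zero, mul_one, Int.cast_one, one_smul, zero_add]
        rw [sum_flatMap']
        simp only [List.map_map, Function.comp_def]

theorem single_eq_bvec (i : D.Idx) : (Pi.single i (1 : F) : D.Idx → F) = bvec D F (Sum.elim (fun i => i.val) (fun s => D.rank + s.val) i) := by
  funext j
  rcases i with i | i <;> rcases j with j | j
  · simp only [bvec, Pi.single_apply, Sum.inl.injEq, Fin.ext_iff, Sum.elim_inl]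
    congr
  · have : D.rank + j.val ≠ i.val := by have := i.2; omega
    simp [bvec, this]
  · have : j.val ≠ D.rank + i.val := by have := j.2; omega
    simp [bvec, this]
  · simp only [bvec, Pi.single_apply, Sum.inr.injEq, Fin.ext_iff, Sum.elim_inr, Nat.add_left_cancel_iff]

/-- **the action of a root element** -/
theorem x_apply (t : F) {r : ℕ} (h : okR D r = true) (v : D.Idx → F) :
    (D.x F r t).mulVec v = v + ((opsI D r).map (opV t v)).sum := by
  have key : (D.x F r t).mulVecLin = appL r t := by
    refine (Pi.basisFun F D.Idx).ext fun i => ?_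
    rw [Pi.basisFun_apply, single_eq_bvec, Matrix.mulVecLin_apply, xMat_mulVec]
    have hk : Sum.elim (fun i => i.val) (fun s => D.rank + s.val) i < D.rank + D.nroots := by
      rcases i with i | i
      · have := i.2
        simp only [Sum.elim_inl]
        omega
      · have := i.2
        simp only [Sum.elim_inr]
        omega
    exact (appI_bvec t h hk).symm
  exact congrArg (fun f => f v) key

end Cfsg.Agent.H671.E83
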