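import Cfsg.Agent.H671.E83.Q81
import Cfsg.Agent.H671.E83.Ops

/-!
# S5925, box G: words of root elements over the field with 81 elements on states (helper671)

A vector of the module of a Chevalley datum with coordinates in `F₃[g]` is a natural number with one slot of 7 bits per
coordinate.

* `sem g n` : the vector of the state `n`;
* `app T r a n`, `x_sem` : the action of `x_r(g ^ a)`;
* `runW`, `w_sem` : words.
-/

set_option autoImplicit false

namespace Cfsg.Agent.H671.E83

open Cfsg Cfsg.Lie Cfsg.Agent.ChevalleyStructure.SparseEng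

/-- slot of a state -/
def slot (k n : ℕ) : ℕ := Nat.land (Nat.shiftRight n (Nat.mul 7 k)) 127

/-- add the code `x` at the slot `d` -/
def upd (n d x : ℕ) : ℕ := Nat.xor n (Nat.shiftLeft (Nat.xor (slot d n) (ad (slot d n) x)) (Nat.mul 7 d))

/-- exponent of an operation -/
def ex (a k : ℕ) : ℕ := Nat.mod (Nat.add (Nat.mul a (Nat.add (Nat.div k 2) 1)) (Nat.mul 40 (Nat.mod k 2))) 80

/-- one operation: read from `n`, add to `acc` -/
def stp (a n acc q : ℕ) : ℕ :=
  Bool.rec (upd acc (Nat.land (Nat.shiftRight q 8) 255)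
    (mu (ex a (Nat.shiftRight q 16)) (slot (Nat.land q 255) n))) acc (Nat.beq (slot (Nat.land q 255) n) 0)

/-- fold -/
noncomputable def go (f : ℕ → ℕ → ℕ) (l : List ℕ) : ℕ → ℕ :=
  List.rec (motive := fun _ => ℕ → ℕ) (fun acc => acc) (fun q _ ih acc => ih (f acc q)) l

/-- a root element -/
noncomputable def app (l : List ℕ) (a n : ℕ) : ℕ := go (stp a n) l n

/-- a word -/
noncomputable def runW (T : ℕ → List ℕ) (w : List (ℕ × ℕ)) (n : ℕ) : ℕ :=
  List.rec (motive := fun _ => ℕ) n (fun q _ ih => app (T q.1) q.2 ih) w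

theorem testBit_slot (k n i : ℕ) : (slot k n).testBit i = (n.testBit (7 * k + i) && decide (i < 7)) := by
  have h : slot k n = (n >>> (7 * k)) &&& (2 ^ 7 - 1) := rfl
  rw [h, Nat.testBit_and, Nat.testBit_shiftRight, Nat.testBit_two_pow_sub_one]

theorem slot_lt (k n : ℕ) : slot k n < 128 := by
  have h : slot k n = (n >>> (7 * k)) &&& (2 ^ 7 - 1) := rfl
  rw [h, Nat.and_two_pow_sub_one_eq_mod]
  exact Nat.mod_lt _ (by norm_num)

theorem slot_upd {n d x : ℕ} (h : ad (slot d n) x < 128) (k : ℕ) :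
    slot k (upd n d x) = if k = d then ad (slot d n) x else slot k n := by
  have hu : upd n d x = n ^^^ ((slot d n ^^^ ad (slot d n) x) <<< (7 * d)) := rfl
  have hy : slot d n ^^^ ad (slot d n) x < 2 ^ 7 := Nat.xor_lt_two_pow (slot_lt d n) h
  generalize hz : slot d n ^^^ ad (slot d n) x = y at *
  apply Nat.eq_of_testBit_eq
  intro i
  rw [testBit_slot, hu, Nat.testBit_xor, Nat.testBit_shiftLeft]
  by_cases hi : i < 7
  · by_cases hk : k = d
    · subst hk
      rw [if_pos rfl]
      have h1 : (decide (7 * k + i ≥ 7 * k)) = true := by simp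
      rw [h1, Bool.true_and, Nat.add_sub_cancel_left, decide_eq_true hi, Bool.and_true, ← hz, Nat.testBit_xor, testBit_slot,
        decide_eq_true hi, Bool.and_true, ← Bool.xor_assoc, Bool.xor_self, Bool.false_xor]
    · rw [if_neg hk, testBit_slot]
      have h2 : (decide (7 * k + i ≥ 7 * d) && y.testBit (7 * k + i - 7 * d)) = false := by
        rcases Nat.lt_or_gt_of_ne hk with h3 | h3
        · have : ¬ (7 * k + i ≥ 7 * d) := by omega
          rw [decide_eq_false this, Bool.false_and]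
        · have h4 : y.testBit (7 * k + i - 7 * d) = false :=
            Nat.testBit_lt_two_pow (lt_of_lt_of_le hy (Nat.pow_le_pow_right (by norm_num) (by omega)))
          rw [h4, Bool.and_false]
      rw [h2, Bool.xor_false]
  · rw [decide_eq_false hi, Bool.and_false]
    symm
    split_ifs
    · exact Nat.testBit_lt_two_pow (lt_of_lt_of_le h (by
        have : 2 ^ 7 ≤ 2 ^ i := Nat.pow_le_pow_right (by norm_num) (by omega)
        simpa using this))
    · rw [testBit_slot, decide_eq_false hi, Bool.and_false]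

/-- valid states -/
def Ok (n : ℕ) : Prop := ∀ k, slot k n < 81

theorem ok_upd {n d x : ℕ} (h : Ok n) (hx : x < 81) : Ok (upd n d x) := by
  intro k
  have h1 : ad (slot d n) x < 81 := ad_lt (h d) hx
  rw [slot_upd (lt_trans h1 (by norm_num))]
  split_ifs
  · exact h1
  · exact h k

theorem ex_lt (a k : ℕ) : ex a k < 80 := Nat.mod_lt _ (by norm_num)

theorem ok_stp {a n acc q : ℕ} (hn : Ok n) (h : Ok acc) : Ok (stp a n acc q) := by
  unfold stp
  cases Nat.beq (slot (Nat.land q 255) n) 0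
  · exact ok_upd h (mu_lt (ex_lt _ _) (hn _))
  · exact h

theorem go_cons (f : ℕ → ℕ → ℕ) (q : ℕ) (l : List ℕ) (acc : ℕ) : go f (q :: l) acc = go f l (f acc q) := rfl

theorem ok_go {a n : ℕ} (hn : Ok n) (l : List ℕ) : ∀ acc, Ok acc → Ok (go (stp a n) l acc) := by
  induction l with
  | nil => exact fun acc h => h
  | cons q l ih => exact fun acc h => ih _ (ok_stp hn h)

theorem ok_app {l : List ℕ} {a n : ℕ} (hn : Ok n) : Ok (app l a n) := ok_go hn l n hn

theorem ok_runW (T : ℕ → List ℕ) {n : ℕ} (hn : Ok n) (w : List (ℕ × ℕ)) : Ok (runW T w n) := by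
  induction w with
  | nil => exact hn
  | cons q w ih => exact ok_app ih

variable {D : ChevalleyDatum} {K : Type*} [Field K]

/-- code of a coordinate -/
def pos : D.Idx → ℕ := Sum.elim (fun i => i.val) (fun s => D.rank + s.val)

/-- the vector of a state -/
def sem (g : K) (n : ℕ) : D.Idx → K := fun idx => val g (slot (pos idx) n)

theorem bvec_pos (k : ℕ) (idx : D.Idx) : bvec D K k idx = if pos idx = k then 1 else 0 := by
  rcases idx with i | s <;> rfl

theorem look_sem {g : K} {n k : ℕ} (hk : k < D.rank + D.nroots) : look (sem (D := D) g n) k = val g (slot k n) := by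
  unfold look
  by_cases h : k < D.rank
  · rw [dif_pos h]
    rfl
  · rw [dif_neg h, dif_pos (by omega)]
    show val g (slot (D.rank + (k - D.rank)) n) = _
    rw [Nat.add_sub_cancel' (not_lt.1 h)]

theorem sem_upd {g : K} (h3 : (3 : K) = 0) {n d x : ℕ} (hn : Ok n) (hx : x < 81) :
    sem (D := D) g (upd n d x) = sem g n + val g x • bvec D K d := by
  funext idx
  have h1 : ad (slot d n) x < 81 := ad_lt (hn d) hx
  rw [Pi.add_apply, Pi.smul_apply, bvec_pos, smul_eq_mul]
  show val g (slot (pos idx) (upd n d x)) = val g (slot (pos idx) n) + _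
  rw [slot_upd (lt_trans h1 (by norm_num))]
  split_ifs with h
  · rw [h, mul_one, val_add h3 (hn d) hx]
  · rw [mul_zero, add_zero]

/-- the value of a packed operation -/
def opQ (g : K) (a : ℕ) (v : D.Idx → K) (q : ℕ) : D.Idx → K :=
  (g ^ ex a (q / 65536) * look v (q % 256)) • bvec D K (q / 256 % 256)

theorem dec0 (q : ℕ) : Nat.land q 255 = q % 256 := by
  have : Nat.land q 255 = q &&& (2 ^ 8 - 1) := rfl
  rw [this, Nat.and_two_pow_sub_one_eq_mod]

theorem dec1 (q : ℕ) : Nat.shiftRight q 8 = q / 256 := by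
  have : Nat.shiftRight q 8 = q >>> 8 := rfl
  rw [this, Nat.shiftRight_eq_div_pow]

theorem dec2 (q : ℕ) : Nat.shiftRight q 16 = q / 65536 := by
  have : Nat.shiftRight q 16 = q >>> 16 := rfl
  rw [this, Nat.shiftRight_eq_div_pow]

theorem stp_eq (a n acc q : ℕ) : stp a n acc q = if slot (q % 256) n = 0 then acc else
    upd acc (q / 256 % 256) (mu (ex a (q / 65536)) (slot (q % 256) n)) := by
  unfold stp
  rw [dec0, dec0, dec1, dec2]
  by_cases h : slot (q % 256) n = 0
  · rw [if_pos h, h]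
    rfl
  · rw [if_neg h]
    have : Nat.beq (slot (q % 256) n) 0 = false := by
      rw [← Bool.not_eq_true, Nat.beq_eq]
      exact h
    rw [this]

theorem sem_stp {g : K} (hg : g ^ 4 = 1 - g) (h3 : (3 : K) = 0) {a n acc q : ℕ} (hn : Ok n) (hacc : Ok acc)
    (hq : q % 256 < D.rank + D.nroots) :
    sem (D := D) g (stp a n acc q) = sem g acc + opQ g a (sem g n) q := by
  rw [stp_eq]
  unfold opQ
  rw [look_sem hq]
  split_ifs with h
  · rw [h, val_zero, mul_zero, zero_smul, add_zero]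
  · rw [sem_upd h3 hacc (mu_lt (ex_lt _ _) (hn _)), val_mu hg h3 (ex_lt _ _) (hn _)]

theorem sem_go {g : K} (hg : g ^ 4 = 1 - g) (h3 : (3 : K) = 0) {a n : ℕ} (hn : Ok n) (l : List ℕ) :
    ∀ acc, Ok acc → (∀ q ∈ l, q % 256 < D.rank + D.nroots) →
      sem (D := D) g (go (stp a n) l acc) = sem g acc + (l.map (opQ g a (sem g n))).sum := by
  induction l with
  | nil =>
    intro acc _ _
    simp [go]
  | cons q l ih =>
    intro acc hacc hl
    rw [go_cons, ih _ (ok_stp hn hacc) (fun q hq => hl q (List.mem_cons_of_mem _ hq)),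
      sem_stp hg h3 hn hacc (hl q List.mem_cons_self), List.map_cons, List.sum_cons, add_assoc]

/-- nonzero modulo 3 -/
def nz (q : ℕ × ℕ × ℤ × ℕ) : Bool := !(q.2.2.1 % 3 == 0)

/-- packing -/
def enc (q : ℕ × ℕ × ℤ × ℕ) : ℕ := q.1 + 256 * q.2.1 + 65536 * (((q.2.2.1 % 3).toNat - 1) + 2 * (q.2.2.2 - 1))

/-- bounds -/
def bnd (m : ℕ) (q : ℕ × ℕ × ℤ × ℕ) : Bool := Nat.blt q.1 m && Nat.blt q.1 256 && Nat.blt q.2.1 256 &&
  (Nat.beq q.2.2.2 1 || Nat.beq q.2.2.2 2)

/-- the list of a root -/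
def chkT (D : ChevalleyDatum) (r : ℕ) (l : List ℕ) : Bool :=
  okR D r && (((opsI D r).filter nz).map enc == l) && (opsI D r).all (bnd (D.rank + D.nroots))

theorem g40 {g : K} (hg : g ^ 4 = 1 - g) (h3 : (3 : K) = 0) : g ^ 40 = -1 := by
  have h1 := val_mu (g := g) hg h3 (a := 40) (c := 1) (by norm_num) (by norm_num)
  have h2 : mu 40 1 = 2 := by decide +kernel
  rw [h2, val_one, mul_one] at h1
  rw [← h1]
  unfold val
  norm_num
  linear_combination h3

theorem g80 {g : K} (hg : g ^ 4 = 1 - g) (h3 : (3 : K) = 0) : g ^ 80 = 1 := by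
  have : g ^ 80 = (g ^ 40) ^ 2 := by rw [← pow_mul]
  rw [this, g40 hg h3]
  ring

theorem pow_mod80 {g : K} (hg : g ^ 4 = 1 - g) (h3 : (3 : K) = 0) (n : ℕ) : g ^ (n % 80) = g ^ n := by
  conv_rhs => rw [← Nat.mod_add_div n 80]
  rw [pow_add, pow_mul, g80 hg h3, one_pow, mul_one]

theorem g_ex {g : K} (hg : g ^ 4 = 1 - g) (h3 : (3 : K) = 0) (a k : ℕ) :
    g ^ ex a k = (g ^ a) ^ (k / 2 + 1) * (-1) ^ (k % 2) := by
  have : ex a k = (a * (k / 2 + 1) + 40 * (k % 2)) % 80 := rfl
  rw [this, pow_mod80 hg h3, pow_add, pow_mul, pow_mul, g40 hg h3]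

theorem cast_emod (h3 : (3 : K) = 0) (m : ℤ) : ((m % 3 : ℤ) : K) = m := by
  conv_rhs => rw [← Int.emod_add_mul_ediv m 3]
  push_cast
  rw [h3, zero_mul, add_zero]

/-- one packed operation -/
theorem opQ_enc {g : K} (hg : g ^ 4 = 1 - g) (h3 : (3 : K) = 0) (a : ℕ) (v : D.Idx → K) {m : ℕ} {q : ℕ × ℕ × ℤ × ℕ}
    (hb : bnd m q = true) (hz : nz q = true) : opQ g a v (enc q) = opV (g ^ a) v q := by
  obtain ⟨s, d, c, p⟩ := q
  simp only [bnd, Bool.and_eq_true, Bool.or_eq_true, Nat.blt_eq, Nat.beq_eq] at hb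
  simp only [nz, Bool.not_eq_true', beq_eq_false_iff_ne, ne_eq] at hz
  obtain ⟨⟨⟨_, hs⟩, hd⟩, hp⟩ := hb
  have hc : (c % 3).toNat = 1 ∧ c % 3 = 1 ∨ (c % 3).toNat = 2 ∧ c % 3 = 2 := by omega
  have e1 : enc (s, d, c, p) % 256 = s := by
    unfold enc
    simp only
    omega
  have e2 : enc (s, d, c, p) / 256 % 256 = d := by
    unfold enc
    simp only
    omega
  have e3 : enc (s, d, c, p) / 65536 = ((c % 3).toNat - 1) + 2 * (p - 1) := by
    unfold enc
    simp only
    omega
  unfold opQ opV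
  rw [e1, e2, e3, g_ex hg h3]
  simp only
  congr 1
  congr 1
  rw [← cast_emod h3 c]
  have h2 : (2 : K) = -1 := by linear_combination h3
  rcases hc with ⟨h4, h5⟩ | ⟨h4, h5⟩ <;> rcases hp with h6 | h6 <;> subst h6 <;> rw [h4, h5] <;> norm_num
  · rw [h2]; ring
  · rw [h2]; ring

theorem sum_enc {g : K} (hg : g ^ 4 = 1 - g) (h3 : (3 : K) = 0) (a : ℕ) (v : D.Idx → K) {m : ℕ} (l : List (ℕ × ℕ × ℤ × ℕ))
    (hb : ∀ q ∈ l, bnd m q = true) :
    (((l.filter nz).map enc).map (opQ g a v)).sum = (l.map (opV (g ^ a) v)).sum := by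
  induction l with
  | nil => simp
  | cons q l ih =>
    have ih' := ih fun q hq => hb q (List.mem_cons_of_mem _ hq)
    by_cases hz : nz q = true
    · rw [List.filter_cons_of_pos hz, List.map_cons, List.map_cons, List.sum_cons, List.map_cons, List.sum_cons, ih',
        opQ_enc hg h3 a v (hb q List.mem_cons_self) hz]
    · rw [List.filter_cons_of_neg hz, List.map_cons, List.sum_cons, ih']
      have h1 : q.2.2.1 % 3 = 0 := by
        simpa [nz] using hz
      have h2 : opV (g ^ a) v q = 0 := by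
        unfold opV
        rw [← cast_emod h3, h1]
        simp
      rw [h2, zero_add]

/-- **a root element on a state** -/
theorem x_sem {g : K} (hg : g ^ 4 = 1 - g) (h3 : (3 : K) = 0) {r : ℕ} {l : List ℕ} (h : chkT D r l = true) (a : ℕ)
    {n : ℕ} (hn : Ok n) : (D.x K r (g ^ a)).mulVec (sem g n) = sem g (app l a n) := by
  unfold chkT at h
  rw [Bool.and_eq_true, Bool.and_eq_true, List.all_eq_true] at h
  obtain ⟨⟨h1, h2⟩, h4⟩ := h
  have h5 : ((opsI D r).filter nz).map enc = l := by simpa using h2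
  rw [x_apply _ h1, app, sem_go hg h3 hn l n hn, ← h5, sum_enc hg h3 a _ _ h4]
  intro q hq
  rw [← h5, List.mem_map] at hq
  obtain ⟨p, hp, rfl⟩ := hq
  have h6 := h4 p (List.mem_filter.1 hp).1
  obtain ⟨s, d, c, e⟩ := p
  simp only [bnd, Bool.and_eq_true, Bool.or_eq_true, Nat.blt_eq, Nat.beq_eq] at h6
  have e1 : enc (s, d, c, e) % 256 = s := by
    unfold enc
    simp only
    omega
  rw [e1]
  omega

/-- the matrix of a word -/
noncomputable def wMat (D : ChevalleyDatum) (g : K) (w : List (ℕ × ℕ)) : Matrix D.Idx D.Idx K :=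
  (w.map fun q => D.x K q.1 (g ^ q.2)).prod

/-- **a word on a state** -/
theorem w_sem {g : K} (hg : g ^ 4 = 1 - g) (h3 : (3 : K) = 0) (T : ℕ → List ℕ) (w : List (ℕ × ℕ))
    (h : ∀ q ∈ w, chkT D q.1 (T q.1) = true) {n : ℕ} (hn : Ok n) :
    (wMat D g w).mulVec (sem g n) = sem g (runW T w n) := by
  induction w with
  | nil =>
    unfold wMat
    rw [List.map_nil, List.prod_nil, Matrix.one_mulVec]
    rfl
  | cons q w ih =>
    unfold wMat at ih ⊢
    rw [List.map_cons, List.prod_cons, ← Matrix.mulVec_mulVec, ih fun q hq => h q (List.mem_cons_of_mem _ hq),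
      x_sem hg h3 (h q List.mem_cons_self) _ (ok_runW T hn w)]
    rfl

end Cfsg.Agent.H671.E83
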