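import Cfsg.Agent.H671.E83.Eng
import Cfsg.Agent.H576.E8L.Io
import Cfsg.Agent.H138.E8L.Scal

/-!
# S5925, box G: the coordinates `io` of `sl(W₀) ⊕ sl(W₁)` on states (helper671)

* `mkM f` : the pair of matrices with the entries `f (5 i + j)`, `f (25 + 5 i + j)`;
* `io_val` : `io` of a pair of matrices of codes is the vector of the state `mk 248 (ioc C)`;
* `linC`, `linK` : sparse linear maps on codes and on values;
* `bas_ext` : linear maps which agree on the codes `bas x` agree on pairs of matrices of trace zero.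
-/

set_option autoImplicit false
set_option linter.style.longLine false

namespace Cfsg.Agent.H671.E83

open Cfsg Cfsg.Lie Cfsg.Agent.ChevalleyStructure.SparseEng Cfsg.Agent.H576.E8L Matrix
open Cfsg.Agent.H138.E8L (e0 e1 Dg Di)

theorem slot_xs {y : ℕ} (hy : y < 128) (n d k : ℕ) :
    slot k (Nat.xor n (Nat.shiftLeft y (Nat.mul 7 d))) = if k = d then Nat.xor (slot k n) y else slot k n := by
  have hu : Nat.xor n (Nat.shiftLeft y (Nat.mul 7 d)) = n ^^^ (y <<< (7 * d)) := rfl
  apply Nat.eq_of_testBit_eq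
  intro i
  rw [testBit_slot, hu, Nat.testBit_xor, Nat.testBit_shiftLeft]
  by_cases hi : i < 7
  · by_cases hk : k = d
    · subst hk
      rw [if_pos rfl]
      have h1 : (decide (7 * k + i ≥ 7 * k)) = true := by simp
      have h2 : Nat.xor (slot k n) y = slot k n ^^^ y := rfl
      rw [h1, Bool.true_and, Nat.add_sub_cancel_left, decide_eq_true hi, Bool.and_true, h2, Nat.testBit_xor, testBit_slot,
        decide_eq_true hi, Bool.and_true]
    · rw [if_neg hk, testBit_slot]
      have h2 : (decide (7 * k + i ≥ 7 * d) && y.testBit (7 * k + i - 7 * d)) = false := by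
        rcases Nat.lt_or_gt_of_ne hk with h3 | h3
        · have : ¬ (7 * k + i ≥ 7 * d) := by omega
          rw [decide_eq_false this, Bool.false_and]
        · have h4 : y.testBit (7 * k + i - 7 * d) = false :=
            Nat.testBit_lt_two_pow (lt_of_lt_of_le hy (by
              have : 2 ^ 7 ≤ 2 ^ (7 * k + i - 7 * d) := Nat.pow_le_pow_right (by norm_num) (by omega)
              simpa using this))
          rw [h4, Bool.and_false]
      rw [h2, Bool.xor_false]
  · rw [decide_eq_false hi, Bool.and_false]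
    symm
    have h7 : 2 ^ 7 ≤ 2 ^ i := Nat.pow_le_pow_right (by norm_num) (by omega)
    split_ifs
    · exact Nat.testBit_lt_two_pow (lt_of_lt_of_le (Nat.xor_lt_two_pow (n := 7) (slot_lt k n) hy) h7)
    · rw [testBit_slot, decide_eq_false hi, Bool.and_false]

theorem slot_land (k a b : ℕ) : slot k (Nat.land a b) = Nat.land (slot k a) (slot k b) := by
  apply Nat.eq_of_testBit_eq
  intro i
  have e1 : Nat.land a b = a &&& b := rfl
  have e2 : Nat.land (slot k a) (slot k b) = slot k a &&& slot k b := rfl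
  rw [testBit_slot, e1, e2, Nat.testBit_and, Nat.testBit_and, testBit_slot, testBit_slot]
  cases a.testBit (7 * k + i) <;> cases b.testBit (7 * k + i) <;> cases (decide (i < 7)) <;> rfl

/-- state from slots -/
noncomputable def mk (m : ℕ) (f : ℕ → ℕ) : ℕ :=
  Nat.rec (motive := fun _ => ℕ) 0 (fun k ih => Nat.xor ih (Nat.shiftLeft (f k) (Nat.mul 7 k))) m

theorem slot_zero (k : ℕ) : slot k 0 = 0 := by
  have : slot k 0 = (0 >>> (7 * k)) &&& (2 ^ 7 - 1) := rfl
  rw [this, Nat.zero_shiftRight, Nat.zero_and]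

theorem slot_mk {f : ℕ → ℕ} (hf : ∀ k, f k < 128) (m k : ℕ) : slot k (mk m f) = if k < m then f k else 0 := by
  induction m with
  | zero => exact slot_zero k
  | succ m ih =>
    have h : mk (m + 1) f = Nat.xor (mk m f) (Nat.shiftLeft (f m) (Nat.mul 7 m)) := rfl
    rw [h, slot_xs (hf m), ih]
    by_cases h1 : k = m
    · subst h1
      rw [if_pos rfl, if_neg (lt_irrefl k), if_pos (Nat.lt_succ_self k)]
      exact Nat.zero_xor _
    · rw [if_neg h1]
      by_cases h2 : k < m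
      · rw [if_pos h2, if_pos (Nat.lt_succ_of_lt h2)]
      · rw [if_neg h2, if_neg (by omega)]

theorem ok_mk {f : ℕ → ℕ} (hf : ∀ k, f k < 81) (m : ℕ) : Ok (mk m f) := by
  intro k
  rw [slot_mk (fun k => lt_trans (hf k) (by norm_num))]
  split_ifs
  · exact hf k
  · norm_num

variable {K : Type*} [Field K]

/-- pair of matrices from a list of entries -/
def mkM (f : ℕ → K) : Matrix (Fin 5) (Fin 5) K × Matrix (Fin 5) (Fin 5) K :=
  (Matrix.of fun i j => f (5 * i.val + j.val), Matrix.of fun i j => f (25 + (5 * i.val + j.val)))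

/-! ### Cartan coordinates -/

/-- `hc` modulo 3 -/
def HCT : ℕ := 0x500159455519265a9686829296aa516

def hcN (b k : ℕ) : ℕ := Nat.land (Nat.shiftRight HCT (Nat.mul 2 (Nat.add (Nat.mul 8 b) k))) 3

theorem hcN_eq : ∀ b k : Fin 8, (hc b k % 3) = ((hcN b.val k.val : ℕ) : ℤ) ∧ hcN b.val k.val < 3 := by decide +kernel

/-- multiple of a code -/
def mc (h c : ℕ) : ℕ := Bool.rec (Bool.rec (mu 40 c) c (Nat.beq h 1)) 0 (Nat.beq h 0)

theorem mc_lt (h : ℕ) {c : ℕ} (hc : c < 81) : mc h c < 81 := by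
  unfold mc
  cases Nat.beq h 0
  · cases Nat.beq h 1
    · exact mu_lt (by norm_num) hc
    · exact hc
  · norm_num

theorem val_mc {g : K} (hg : g ^ 4 = 1 - g) (h3 : (3 : K) = 0) {h c : ℕ} (hh : h < 3) (hc : c < 81) :
    val g (mc h c) = (h : K) * val g c := by
  have h2 : (2 : K) = -1 := by linear_combination h3
  rcases (by omega : h = 0 ∨ h = 1 ∨ h = 2) with rfl | rfl | rfl
  · have : mc 0 c = 0 := rfl
    rw [this, val_zero]
    simp
  · have : mc 1 c = c := rfl
    rw [this]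
    simp
  · have : mc 2 c = mu 40 c := rfl
    rw [this, val_mu hg h3 (by norm_num) hc, g40 hg h3]
    push_cast
    rw [h2]

/-- partial sums of the diagonal -/
noncomputable def pst (C : ℕ → ℕ) (t b : ℕ) : ℕ :=
  Nat.rec (motive := fun _ => ℕ) (C (Nat.mul 25 t)) (fun b ih => ad ih (C (Nat.add (Nat.mul 25 t) (Nat.mul 6 (Nat.succ b))))) b

/-- the eight partial sums -/
noncomputable def p8 (C : ℕ → ℕ) (b : ℕ) : ℕ := Bool.rec (pst C 1 (Nat.sub b 4)) (pst C 0 b) (Nat.blt b 4)

/-- Cartan coordinate -/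
noncomputable def cc (C : ℕ → ℕ) (m k : ℕ) : ℕ :=
  Nat.rec (motive := fun _ => ℕ) 0 (fun b ih => ad ih (mc (hcN b k) (p8 C b))) m

theorem pst_lt {C : ℕ → ℕ} (hC : ∀ x, C x < 81) (t b : ℕ) : pst C t b < 81 := by
  induction b with
  | zero => exact hC _
  | succ b ih => exact ad_lt ih (hC _)

theorem p8_lt {C : ℕ → ℕ} (hC : ∀ x, C x < 81) (b : ℕ) : p8 C b < 81 := by
  unfold p8
  cases Nat.blt b 4
  · exact pst_lt hC _ _
  · exact pst_lt hC _ _

theorem cc_lt {C : ℕ → ℕ} (hC : ∀ x, C x < 81) (m k : ℕ) : cc C m k < 81 := by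
  induction m with
  | zero =>
    show 0 < 81
    norm_num
  | succ b ih => exact ad_lt ih (mc_lt _ (p8_lt hC _))

theorem ps_pst {g : K} (h3 : (3 : K) = 0) {C : ℕ → ℕ} (hC : ∀ x, C x < 81) (b : Fin 4) :
    ps (mkM fun x => val g (C x)).1 b = val g (pst C 0 b.val) ∧
      ps (mkM fun x => val g (C x)).2 b = val g (pst C 1 b.val) := by
  unfold ps
  rw [Fin.sum_univ_five, Fin.sum_univ_five]
  fin_cases b
  · constructor
    · simp [Fin.le_def, mkM, pst]
    · simp [Fin.le_def, mkM, pst]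
  · constructor
    · simp [Fin.le_def, mkM, pst, val_add h3 (hC _) (hC _)]
    · simp [Fin.le_def, mkM, pst, val_add h3 (hC _) (hC _)]
  · constructor
    · simp [Fin.le_def, mkM, pst, val_add h3 (ad_lt (hC _) (hC _)) (hC _), val_add h3 (hC _) (hC _)]
    · simp [Fin.le_def, mkM, pst, val_add h3 (ad_lt (hC _) (hC _)) (hC _), val_add h3 (hC _) (hC _)]
  · constructor
    · simp [Fin.le_def, mkM, pst, val_add h3 (ad_lt (ad_lt (hC _) (hC _)) (hC _)) (hC _), val_add h3 (ad_lt (hC _) (hC _)) (hC _), val_add h3 (hC _) (hC _)]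
    · simp [Fin.le_def, mkM, pst, val_add h3 (ad_lt (ad_lt (hC _) (hC _)) (hC _)) (hC _), val_add h3 (ad_lt (hC _) (hC _)) (hC _), val_add h3 (hC _) (hC _)]

theorem ps8_p8 {g : K} (h3 : (3 : K) = 0) {C : ℕ → ℕ} (hC : ∀ x, C x < 81) (b : Fin 8) :
    ps8 (mkM fun x => val g (C x)) b = val g (p8 C b.val) := by
  unfold ps8
  by_cases h : b.val < 4
  · rw [dif_pos h, (ps_pst h3 hC _).1]
    have : p8 C b.val = pst C 0 b.val := by
      unfold p8
      have : Nat.blt b.val 4 = true := by rw [Nat.blt_eq]; exact h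
      rw [this]
    rw [this]
  · rw [dif_neg h, (ps_pst h3 hC _).2]
    have : p8 C b.val = pst C 1 (b.val - 4) := by
      unfold p8
      have : Nat.blt b.val 4 = false := by
        rw [← Bool.not_eq_true, Nat.blt_eq]
        exact h
      rw [this]
      rfl
    rw [this]

theorem val_cc {g : K} (hg : g ^ 4 = 1 - g) (h3 : (3 : K) = 0) {C : ℕ → ℕ} (hC : ∀ x, C x < 81) (k : Fin 8) {m : ℕ} (hm : m ≤ 8) :
    val g (cc C m k.val) = ∑ b ∈ Finset.range m, val g (p8 C b) * (hcN b k.val : K) := by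
  induction m with
  | zero =>
    rw [Finset.range_zero, Finset.sum_empty]
    exact val_zero
  | succ m ih =>
    have h : cc C (m + 1) k.val = ad (cc C m k.val) (mc (hcN m k.val) (p8 C m)) := rfl
    rw [h, val_add h3 (cc_lt hC _ _) (mc_lt _ (p8_lt hC _)), ih (by omega), Finset.sum_range_succ,
      val_mc hg h3 ((hcN_eq ⟨m, by omega⟩ k).2) (p8_lt hC _), mul_comm (hcN m k.val : K)]

/-! ### root coordinates -/

/-- index of a root of `W₀`, `W₁` -/
def INVT : ℕ := 0xfffffffff29effffffffffffffffff8fffff53ffcdffffc5ffffff8bffff87ffffffffffffffe8ffffedffffff2fffff3fffceffffe0ffffffffffff9d7ffffe6fff23ffffffffffffffffffffffffffff57ffffb3fffffffffffffffffffff0ffffc9ffffffffffffffffffffffffffffd0fffabffff4efffffffffffff93ffff5bffc3ffffc7ffffff77ffff73ffffffffffffffe9ffffeeffffff07ffff47ffc4ffffdbffffffffffffffffff682fffffffff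

/-- signs -/
def SGT : ℕ := 0x838a18218308

def invN (u : ℕ) : ℕ := Nat.land (Nat.shiftRight INVT (Nat.mul 6 u)) 63

def sgx (x : ℕ) : ℕ := Nat.mul 40 (Nat.land (Nat.shiftRight SGT x) 1)

theorem inv0 : ∀ i j : Fin 5, i ≠ j → invN (w0 i j) = 5 * i.val + j.val ∧ s0 i j = (if sgx (5 * i.val + j.val) = 40 then -1 else 1) := by
  decide +kernel

theorem inv1 : ∀ i j : Fin 5, i ≠ j → invN (w1 i j) = 25 + (5 * i.val + j.val) ∧ s1 i j = (if sgx (25 + (5 * i.val + j.val)) = 40 then -1 else 1) := by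
  decide +kernel

theorem inv_ne : ∀ u : Fin 240, invN u.val = 63 ∨
    (w0 (Fin.ofNat 5 (invN u.val / 5)) (Fin.ofNat 5 (invN u.val)) = u.val ∧ (Fin.ofNat 5 (invN u.val / 5) : Fin 5) ≠ Fin.ofNat 5 (invN u.val)) ∨
    (w1 (Fin.ofNat 5 (invN u.val / 5)) (Fin.ofNat 5 (invN u.val)) = u.val ∧ (Fin.ofNat 5 (invN u.val / 5) : Fin 5) ≠ Fin.ofNat 5 (invN u.val)) := by
  decide +kernel

theorem sgx_cases (x : ℕ) : sgx x = 0 ∨ sgx x = 40 := by
  have h : sgx x = 40 * ((SGT >>> x) &&& (2 ^ 1 - 1)) := rfl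
  rw [h, Nat.and_two_pow_sub_one_eq_mod]
  omega

theorem g_sgx {g : K} (hg : g ^ 4 = 1 - g) (h3 : (3 : K) = 0) (x : ℕ) :
    g ^ sgx x = (((if sgx x = 40 then -1 else 1 : ℤ)) : K) := by
  rcases sgx_cases x with h | h <;> rw [h]
  · simp
  · rw [g40 hg h3]
    simp

/-- code of the coordinate `8 + u` -/
def rc (C : ℕ → ℕ) (u : ℕ) : ℕ := Bool.rec (mu (sgx (invN u)) (C (invN u))) 0 (Nat.beq (invN u) 63)

/-- code of a coordinate of `io` -/
noncomputable def ioc (C : ℕ → ℕ) (k : ℕ) : ℕ := Bool.rec (rc C (Nat.sub k 8)) (cc C 8 k) (Nat.blt k 8)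

theorem rc_lt {C : ℕ → ℕ} (hC : ∀ x, C x < 81) (u : ℕ) : rc C u < 81 := by
  unfold rc
  cases Nat.beq (invN u) 63
  · refine mu_lt ?_ (hC _)
    rcases sgx_cases (invN u) with h | h <;> rw [h] <;> norm_num
  · norm_num

theorem ioc_lt {C : ℕ → ℕ} (hC : ∀ x, C x < 81) (k : ℕ) : ioc C k < 81 := by
  unfold ioc
  cases Nat.blt k 8
  · exact rc_lt hC _
  · exact cc_lt hC _ _

theorem rc_of {C : ℕ → ℕ} {u : ℕ} (h : invN u ≠ 63) : rc C u = mu (sgx (invN u)) (C (invN u)) := by
  unfold rc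
  have : Nat.beq (invN u) 63 = false := by
    rw [← Bool.not_eq_true, Nat.beq_eq]
    exact h
  rw [this]

theorem rc_none {C : ℕ → ℕ} {u : ℕ} (h : invN u = 63) : rc C u = 0 := by
  unfold rc
  rw [h]
  rfl

/-- **`io` on codes** -/
theorem io_val {g : K} (hg : g ^ 4 = 1 - g) (h3 : (3 : K) = 0) {C : ℕ → ℕ} (hC : ∀ x, C x < 81) (idx : chevE8.Idx) :
    io K (mkM fun x => val g (C x)) idx = val g (ioc C (pos idx)) := by
  rcases idx with i | u
  · have h1 : ioc C (pos (Sum.inl i : chevE8.Idx)) = cc C 8 i.val := by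
      unfold ioc
      have : Nat.blt (pos (Sum.inl i : chevE8.Idx)) 8 = true := by
        rw [Nat.blt_eq]
        exact i.isLt
      rw [this]
      rfl
    rw [h1]
    refine (io_inl _ i).trans ?_
    refine Eq.trans ?_ (val_cc hg h3 hC (i : Fin 8) le_rfl).symm
    rw [Finset.sum_range]
    refine Finset.sum_congr rfl fun b _ => ?_
    rw [ps8_p8 h3 hC]
    congr 1
    have h2 := (hcN_eq b i).1
    have h4 : (((hc b i) % 3 : ℤ) : K) = ((((hcN b.val i.val : ℕ) : ℤ)) : K) := by rw [h2]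
    rw [cast_emod h3] at h4
    rw [h4]
    push_cast
    rfl
  · have hu : u.val < 240 := u.isLt
    have h1 : ioc C (pos (Sum.inr u : chevE8.Idx)) = rc C u.val := by
      unfold ioc
      have e : pos (Sum.inr u : chevE8.Idx) = 8 + u.val := rfl
      have : Nat.blt (8 + u.val) 8 = false := by
        rw [← Bool.not_eq_true, Nat.blt_eq]
        omega
      rw [e, this]
      show rc C (8 + u.val - 8) = _
      rw [Nat.add_sub_cancel_left]
    rw [h1]
    by_cases h0 : ∃ i j : Fin 5, i ≠ j ∧ u.val = w0 i j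
    · obtain ⟨i, j, hij, hu0⟩ := h0
      have h2 := inv0 i j hij
      rw [← hu0] at h2
      refine (io_root0 _ _ hij hu0).trans ?_
      have h4 : 5 * i.val + j.val ≠ 63 := by omega
      rw [rc_of (by rw [h2.1]; exact h4), h2.1, val_mu hg h3 _ (hC _), g_sgx hg h3, h2.2]
      · rfl
      · rcases sgx_cases (5 * i.val + j.val) with h | h <;> rw [h] <;> norm_num
    · by_cases h1 : ∃ i j : Fin 5, i ≠ j ∧ u.val = w1 i j
      · obtain ⟨i, j, hij, hu0⟩ := h1
        have h2 := inv1 i j hij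
        rw [← hu0] at h2
        refine (io_root1 _ _ hij hu0).trans ?_
        have h4 : 25 + (5 * i.val + j.val) ≠ 63 := by omega
        rw [rc_of (by rw [h2.1]; exact h4), h2.1, val_mu hg h3 _ (hC _), g_sgx hg h3, h2.2]
        · rfl
        · rcases sgx_cases (25 + (5 * i.val + j.val)) with h | h <;> rw [h] <;> norm_num
      · push Not at h0 h1
        rw [io_root_out _ h0 h1]
        rcases inv_ne ⟨u.val, hu⟩ with h | h | h
        · rw [rc_none h, val_zero]
        · exact absurd h.1.symm (h0 _ _ h.2)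
        · exact absurd h.1.symm (h1 _ _ h.2)

/-- `io` of a pair of matrices of codes is a state -/
theorem io_sem {g : K} (hg : g ^ 4 = 1 - g) (h3 : (3 : K) = 0) {C : ℕ → ℕ} (hC : ∀ x, C x < 81) :
    io K (mkM fun x => val g (C x)) = sem g (mk 248 (ioc C)) := by
  funext idx
  rw [io_val hg h3 hC]
  have h : pos idx < 248 := by
    rcases idx with i | u
    · have : i.val < 8 := i.isLt
      show i.val < 248
      omega
    · have : u.val < 240 := u.isLt
      show 8 + u.val < 248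
      omega
  unfold sem
  rw [slot_mk (fun k => lt_trans (ioc_lt hC k) (by norm_num)), if_pos h]

/-! ### scaling -/

/-- exponents `r_i - r_j` modulo 80 -/
def EXT : ℕ := 0x4b8d18005012e58514140001428280002804b8d180008c0079e140051950023001e7a0b782007b250ca080

def exS (x : ℕ) : ℕ := Nat.mod (Nat.land (Nat.shiftRight EXT (Nat.mul 7 x)) 127) 80

/-- scaled codes -/
def scC (C : ℕ → ℕ) (x : ℕ) : ℕ := mu (exS x) (C x)

theorem exS_eq : ∀ i j : Fin 5, (exS (5 * i.val + j.val) + e0 j) % 80 = e0 i % 80 ∧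
    (exS (25 + (5 * i.val + j.val)) + e1 j) % 80 = e1 i % 80 := by decide +kernel

theorem exS_lt (x : ℕ) : exS x < 80 := Nat.mod_lt _ (by norm_num)

theorem scC_lt {C : ℕ → ℕ} (hC : ∀ x, C x < 81) (x : ℕ) : scC C x < 81 := mu_lt (exS_lt x) (hC x)

theorem g_ne0 {g : K} (hg : g ^ 4 = 1 - g) : g ≠ 0 := by
  rintro rfl
  norm_num at hg

theorem Dg_conj {g : K} (hg : g ^ 4 = 1 - g) (h3 : (3 : K) = 0) {e : Fin 5 → ℕ} {i j : Fin 5} {s : ℕ}
    (h : (s + e j) % 80 = e i % 80) (A : Matrix (Fin 5) (Fin 5) K) :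
    (Dg g e * A * Di g e) i j = g ^ s * A i j := by
  unfold Dg Di
  rw [Matrix.mul_diagonal, Matrix.diagonal_mul]
  have h1 : g ^ e i = g ^ s * g ^ e j := by
    rw [← pow_add, ← pow_mod80 hg h3 (e i), ← pow_mod80 hg h3 (s + e j), h]
  have h2 : g ^ e j ≠ 0 := pow_ne_zero _ (g_ne0 hg)
  rw [h1, inv_pow]
  field_simp

/-- the embedding in the scaled frame -/
def iot (g : K) (p : Matrix (Fin 5) (Fin 5) K × Matrix (Fin 5) (Fin 5) K) : chevE8.Idx → K :=
  io K (Dg g e0 * p.1 * Di g e0, Dg g e1 * p.2 * Di g e1)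

theorem iot_sem {g : K} (hg : g ^ 4 = 1 - g) (h3 : (3 : K) = 0) {C : ℕ → ℕ} (hC : ∀ x, C x < 81) :
    iot g (mkM fun x => val g (C x)) = sem g (mk 248 (ioc (scC C))) := by
  rw [← io_sem hg h3 (scC_lt hC)]
  unfold iot
  congr 1
  refine Prod.ext ?_ ?_
  · ext i j
    exact (Dg_conj hg h3 (exS_eq i j).1 _).trans (val_mu hg h3 (exS_lt _) (hC _)).symm
  · ext i j
    exact (Dg_conj hg h3 (exS_eq i j).2 _).trans (val_mu hg h3 (exS_lt _) (hC _)).symm

theorem iot_add (g : K) (p q : Matrix (Fin 5) (Fin 5) K × Matrix (Fin 5) (Fin 5) K) : iot g (p + q) = iot g p + iot g q := by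
  unfold iot
  rw [← map_add]
  congr 1
  refine Prod.ext ?_ ?_
  · simp [Matrix.mul_add, Matrix.add_mul]
  · simp [Matrix.mul_add, Matrix.add_mul]

theorem iot_smul (g c : K) (p : Matrix (Fin 5) (Fin 5) K × Matrix (Fin 5) (Fin 5) K) : iot g (c • p) = c • iot g p := by
  unfold iot
  rw [← map_smul]
  congr 1
  refine Prod.ext ?_ ?_
  · simp
  · simp

/-! ### sparse linear maps -/

/-- signed powers -/
def cf (g : K) (e : ℕ) : K := if e < 80 then g ^ e else -g ^ (e - 80)

def mus (e c : ℕ) : ℕ := Bool.rec (mu 40 (mu (Nat.mod (Nat.sub e 80) 80) c)) (mu e c) (Nat.blt e 80)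

noncomputable def linC (T : ℕ → List (ℕ × ℕ)) (C : ℕ → ℕ) (x : ℕ) : ℕ :=
  List.rec (motive := fun _ => ℕ) 0 (fun q _ ih => ad (mus q.2 (C q.1)) ih) (T x)

def linK (g : K) (T : ℕ → List (ℕ × ℕ)) (f : ℕ → K) (x : ℕ) : K := ((T x).map fun q => cf g q.2 * f q.1).sum

theorem mus_lt (e : ℕ) {c : ℕ} (hc : c < 81) : mus e c < 81 := by
  unfold mus
  by_cases h : e < 80
  · have : Nat.blt e 80 = true := by rw [Nat.blt_eq]; exact h
    rw [this]
    exact mu_lt h hc
  · have : Nat.blt e 80 = false := by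
      rw [← Bool.not_eq_true, Nat.blt_eq]
      exact h
    rw [this]
    exact mu_lt (by norm_num) (mu_lt (Nat.mod_lt _ (by norm_num)) hc)

theorem val_mus {g : K} (hg : g ^ 4 = 1 - g) (h3 : (3 : K) = 0) (e : ℕ) {c : ℕ} (hc : c < 81) :
    val g (mus e c) = cf g e * val g c := by
  unfold mus cf
  by_cases h : e < 80
  · have : Nat.blt e 80 = true := by rw [Nat.blt_eq]; exact h
    rw [this, if_pos h]
    exact val_mu hg h3 h hc
  · have : Nat.blt e 80 = false := by
      rw [← Bool.not_eq_true, Nat.blt_eq]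
      exact h
    rw [this, if_neg h]
    show val g (mu 40 (mu ((e - 80) % 80) c)) = _
    rw [val_mu hg h3 (by norm_num) (mu_lt (Nat.mod_lt _ (by norm_num)) hc), val_mu hg h3 (Nat.mod_lt _ (by norm_num)) hc,
      pow_mod80 hg h3, g40 hg h3]
    ring

theorem lin_val {g : K} (hg : g ^ 4 = 1 - g) (h3 : (3 : K) = 0) (T : ℕ → List (ℕ × ℕ)) {C : ℕ → ℕ} (hC : ∀ x, C x < 81) (x : ℕ) :
    linC T C x < 81 ∧ val g (linC T C x) = linK g T (fun y => val g (C y)) x := by
  unfold linC linK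
  induction T x with
  | nil => exact ⟨by show 0 < 81; norm_num, by simpa using (val_zero (g := g))⟩
  | cons q l ih =>
    refine ⟨ad_lt (mus_lt _ (hC _)) ih.1, ?_⟩
    rw [List.map_cons, List.sum_cons, ← ih.2, ← val_mus hg h3 q.2 (hC _)]
    exact val_add h3 (mus_lt _ (hC _)) ih.1

/-- entries -/
def ent (p : Matrix (Fin 5) (Fin 5) K × Matrix (Fin 5) (Fin 5) K) (y : ℕ) : K :=
  if y < 25 then p.1 (Fin.ofNat 5 (y / 5)) (Fin.ofNat 5 y) else p.2 (Fin.ofNat 5 (y / 5)) (Fin.ofNat 5 y)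

theorem ent_mkM (f : ℕ → K) {y : ℕ} (hy : y < 50) : ent (mkM f) y = f y := by
  unfold ent mkM
  simp only [Matrix.of_apply, Fin.ofNat]
  split_ifs with h
  · congr 1
    omega
  · congr 1
    omega

theorem ent_add (p q : Matrix (Fin 5) (Fin 5) K × Matrix (Fin 5) (Fin 5) K) (y : ℕ) : ent (p + q) y = ent p y + ent q y := by
  unfold ent
  split_ifs <;> rfl

theorem ent_smul (c : K) (p : Matrix (Fin 5) (Fin 5) K × Matrix (Fin 5) (Fin 5) K) (y : ℕ) : ent (c • p) y = c * ent p y := by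
  unfold ent
  split_ifs <;> rfl

theorem linK_add (g : K) (T : ℕ → List (ℕ × ℕ)) (f f' : ℕ → K) (x : ℕ) :
    linK g T (fun y => f y + f' y) x = linK g T f x + linK g T f' x := by
  unfold linK
  induction T x with
  | nil => simp
  | cons q l ih =>
    simp only [List.map_cons, List.sum_cons, ih]
    ring

theorem linK_smul (g c : K) (T : ℕ → List (ℕ × ℕ)) (f : ℕ → K) (x : ℕ) :
    linK g T (fun y => c * f y) x = c * linK g T f x := by
  unfold linK
  induction T x with
  | nil => simp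
  | cons q l ih =>
    simp only [List.map_cons, List.sum_cons, ih]
    ring

/-- the sparse map on pairs of matrices -/
def linM (g : K) (T : ℕ → List (ℕ × ℕ)) (p : Matrix (Fin 5) (Fin 5) K × Matrix (Fin 5) (Fin 5) K) :
    Matrix (Fin 5) (Fin 5) K × Matrix (Fin 5) (Fin 5) K := mkM (linK g T (ent p))

theorem mkM_add (f f' : ℕ → K) : mkM (fun x => f x + f' x) = mkM f + mkM f' := rfl

theorem mkM_smul (c : K) (f : ℕ → K) : mkM (fun x => c * f x) = c • mkM f := rfl

theorem linM_add (g : K) (T : ℕ → List (ℕ × ℕ)) (p q : Matrix (Fin 5) (Fin 5) K × Matrix (Fin 5) (Fin 5) K) :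
    linM g T (p + q) = linM g T p + linM g T q := by
  unfold linM
  rw [← mkM_add]
  congr 1
  funext x
  rw [← linK_add]
  congr 1
  funext y
  exact ent_add p q y

theorem linM_smul (g c : K) (T : ℕ → List (ℕ × ℕ)) (p : Matrix (Fin 5) (Fin 5) K × Matrix (Fin 5) (Fin 5) K) :
    linM g T (c • p) = c • linM g T p := by
  unfold linM
  rw [← mkM_smul]
  congr 1
  funext x
  rw [← linK_smul]
  congr 1
  funext y
  exact ent_smul c p y

theorem linM_val {g : K} (hg : g ^ 4 = 1 - g) (h3 : (3 : K) = 0) {T : ℕ → List (ℕ × ℕ)}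
    (hT : ∀ x < 50, ∀ q ∈ T x, q.1 < 50) {C : ℕ → ℕ} (hC : ∀ x, C x < 81) :
    linM g T (mkM fun x => val g (C x)) = mkM fun x => val g (linC T C x) := by
  have h : ∀ x < 50, linK g T (ent (mkM fun x => val g (C x))) x = val g (linC T C x) := by
    intro x hx
    rw [(lin_val hg h3 T hC x).2]
    unfold linK
    congr 1
    apply List.map_congr_left
    intro q hq
    rw [ent_mkM _ (hT x hx q hq)]
  unfold linM
  refine Prod.ext ?_ ?_
  · ext i j
    exact h _ (by omega)
  · ext i j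
    exact h _ (by omega)

/-! ### a basis of the pairs of matrices of trace zero -/

/-- codes of `E_ij - δ_ij E_44` -/
def bas (x0 x : ℕ) : ℕ :=
  Bool.rec (Bool.rec 0 2 (and (Nat.beq (Nat.mod (Nat.mod x0 25) 6) 0) (Nat.beq x (Nat.add (Nat.mul 25 (Nat.div x0 25)) 24)))) 1 (Nat.beq x x0)

theorem bas_lt (x0 x : ℕ) : bas x0 x < 81 := by
  unfold bas
  cases Nat.beq x x0
  · cases (and (Nat.beq (Nat.mod (Nat.mod x0 25) 6) 0) (Nat.beq x (Nat.add (Nat.mul 25 (Nat.div x0 25)) 24)))
    · show 0 < 81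
      norm_num
    · show 2 < 81
      norm_num
  · show 1 < 81
    norm_num

theorem bas_eq : ∀ i j a b : Fin 5, ¬ (i = 4 ∧ j = 4) →
    bas (5 * i.val + j.val) (5 * a.val + b.val) = (if i = a ∧ j = b then 1 else if i = j ∧ a = 4 ∧ b = 4 then 2 else 0) ∧
    bas (5 * i.val + j.val) (25 + (5 * a.val + b.val)) = 0 ∧
    bas (25 + (5 * i.val + j.val)) (25 + (5 * a.val + b.val)) = (if i = a ∧ j = b then 1 else if i = j ∧ a = 4 ∧ b = 4 then 2 else 0) ∧
    bas (25 + (5 * i.val + j.val)) (5 * a.val + b.val) = 0 := by decide +kernel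

/-- `E_ij - δ_ij E_44` -/
def Eb (i j : Fin 5) : Matrix (Fin 5) (Fin 5) K := Matrix.single i j 1 - if i = j then Matrix.single 4 4 1 else 0

theorem val_two {g : K} (h3 : (3 : K) = 0) : val g 2 = -1 := by
  unfold val
  norm_num
  linear_combination h3

theorem Eb_apply {g : K} (h3 : (3 : K) = 0) (i j a b : Fin 5) (h : ¬ (i = 4 ∧ j = 4)) :
    (Eb i j : Matrix (Fin 5) (Fin 5) K) a b = val g (if i = a ∧ j = b then 1 else if i = j ∧ a = 4 ∧ b = 4 then 2 else 0) := by
  unfold Eb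
  rw [Matrix.sub_apply, Matrix.single_apply]
  by_cases h1 : i = a ∧ j = b
  · rw [if_pos h1, if_pos h1, val_one]
    by_cases h2 : i = j
    · rw [if_pos h2, Matrix.single_apply, if_neg, sub_zero]
      rintro ⟨h5, h6⟩
      apply h
      exact ⟨h1.1.trans h5.symm, h1.2.trans h6.symm⟩
    · rw [if_neg h2]
      simp
  · rw [if_neg h1, if_neg h1, zero_sub]
    by_cases h2 : i = j
    · rw [if_pos h2, Matrix.single_apply]
      by_cases h4 : (4 : Fin 5) = a ∧ (4 : Fin 5) = b
      · rw [if_pos h4, if_pos ⟨h2, h4.1.symm, h4.2.symm⟩, val_two h3]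
      · rw [if_neg h4, if_neg, val_zero, neg_zero]
        rintro ⟨_, h5, h6⟩
        exact h4 ⟨h5.symm, h6.symm⟩
    · rw [if_neg h2, if_neg (fun h5 => h2 h5.1), val_zero]
      simp

theorem bas0 {g : K} (h3 : (3 : K) = 0) (i j : Fin 5) (h : ¬ (i = 4 ∧ j = 4)) :
    mkM (fun x => val g (bas (5 * i.val + j.val) x)) = (Eb i j, (0 : Matrix (Fin 5) (Fin 5) K)) := by
  refine Prod.ext ?_ ?_
  · ext a b
    show val g (bas (5 * i.val + j.val) (5 * a.val + b.val)) = Eb i j a b
    rw [(bas_eq i j a b h).1, Eb_apply (g := g) h3 i j a b h]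
  · ext a b
    show val g (bas (5 * i.val + j.val) (25 + (5 * a.val + b.val))) = 0
    rw [(bas_eq i j a b h).2.1, val_zero]

theorem bas1 {g : K} (h3 : (3 : K) = 0) (i j : Fin 5) (h : ¬ (i = 4 ∧ j = 4)) :
    mkM (fun x => val g (bas (25 + (5 * i.val + j.val)) x)) = ((0 : Matrix (Fin 5) (Fin 5) K), Eb i j) := by
  refine Prod.ext ?_ ?_
  · ext a b
    show val g (bas (25 + (5 * i.val + j.val)) (5 * a.val + b.val)) = 0
    rw [(bas_eq i j a b h).2.2.2, val_zero]
  · ext a b
    show val g (bas (25 + (5 * i.val + j.val)) (25 + (5 * a.val + b.val))) = Eb i j a b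
    rw [(bas_eq i j a b h).2.2.1, Eb_apply (g := g) h3 i j a b h]

theorem mat_ext {V : Type*} [AddCommGroup V] [Module K V] (L : Matrix (Fin 5) (Fin 5) K →ₗ[K] V)
    (h : ∀ i j : Fin 5, ¬ (i = 4 ∧ j = 4) → L (Eb i j) = 0) {A : Matrix (Fin 5) (Fin 5) K} (hA : A.trace = 0) : L A = 0 := by
  have h1 : ∀ i j : Fin 5, L (Matrix.single i j 1) = if i = j then L (Matrix.single 4 4 1) else 0 := by
    intro i j
    by_cases h4 : i = 4 ∧ j = 4
    · rw [h4.1, h4.2, if_pos rfl]
    · have h5 := h i j h4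
      unfold Eb at h5
      rw [map_sub, sub_eq_zero] at h5
      rw [h5]
      split_ifs
      · rfl
      · exact map_zero L
  rw [Matrix.matrix_eq_sum_single A, map_sum]
  have h2 : ∀ i : Fin 5, L (∑ j, Matrix.single i j (A i j)) = A i i • L (Matrix.single 4 4 1) := by
    intro i
    rw [map_sum, Finset.sum_eq_single i]
    · have : Matrix.single i i (A i i) = A i i • Matrix.single i i (1 : K) := by rw [Matrix.smul_single, smul_eq_mul, mul_one]
      rw [this, map_smul, h1, if_pos rfl]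
    · intro j _ hj
      have : Matrix.single i j (A i j) = A i j • Matrix.single i j (1 : K) := by rw [Matrix.smul_single, smul_eq_mul, mul_one]
      rw [this, map_smul, h1, if_neg (Ne.symm hj), smul_zero]
    · intro h; exact absurd (Finset.mem_univ _) h
  rw [Finset.sum_congr rfl fun i _ => h2 i, ← Finset.sum_smul]
  have : ∑ i, A i i = A.trace := rfl
  rw [this, hA, zero_smul]

theorem bas_ext {V : Type*} [AddCommGroup V] [Module K V] {g : K} (h3 : (3 : K) = 0)
    (L : (Matrix (Fin 5) (Fin 5) K × Matrix (Fin 5) (Fin 5) K) →ₗ[K] V)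
    (h : ∀ x < 50, x ≠ 24 → x ≠ 49 → L (mkM fun y => val g (bas x y)) = 0)
    {p : Matrix (Fin 5) (Fin 5) K × Matrix (Fin 5) (Fin 5) K} (h0 : p.1.trace = 0) (h1 : p.2.trace = 0) : L p = 0 := by
  have e0 : L (p.1, 0) = 0 := by
    refine mat_ext (L.comp (LinearMap.inl K _ _)) (fun i j hij => ?_) h0
    show L (Eb i j, 0) = 0
    rw [← bas0 (g := g) h3 i j hij]
    refine h _ (by omega) (fun h5 => hij ?_) (by omega)
    constructor
    · apply Fin.ext; show i.val = 4; omega
    · apply Fin.ext; show j.val = 4; omega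
  have e1 : L (0, p.2) = 0 := by
    refine mat_ext (L.comp (LinearMap.inr K _ _)) (fun i j hij => ?_) h1
    show L (0, Eb i j) = 0
    rw [← bas1 (g := g) h3 i j hij]
    refine h _ (by omega) (by omega) (fun h5 => hij ?_)
    constructor
    · apply Fin.ext; show i.val = 4; omega
    · apply Fin.ext; show j.val = 4; omega
  have e2 : p = (p.1, 0) + (0, p.2) := by
    refine Prod.ext ?_ ?_ <;> simp
  rw [e2, map_add, e0, e1, add_zero]

end Cfsg.Agent.H671.E83
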