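import Cfsg.Agent.H671.E83.XIo
import Cfsg.Agent.H576.E8L.PN
import Cfsg.Agent.H138.E8L.Zed

/-!
# S5925, box G: `Tbl g (ph2 K X)` for `X = X5M g` (helper671)
-/

set_option autoImplicit false
set_option linter.style.longLine false

namespace Cfsg.Agent.H671.E83

open Cfsg Cfsg.Lie Cfsg.Agent.ChevalleyStructure.SparseEng Cfsg.Agent.H576.E8L Matrix
open Cfsg.Agent.ChevalleyStructure.Elts
open Cfsg.Agent.H992.E8X (X coe_X X_neg)
open Cfsg.Agent.H238.E8 (ph2 ph2_tv rt2 sg2)
open Cfsg.Agent.H138.E8L.Zed (X5M xe)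

variable {K : Type} [Field K]

/-! ### the support -/

theorem inU0 : ∀ i j : Fin 5, i ≠ j → slot (8 + w0 i j) MASK = 127 := by decide +kernel
theorem inU1 : ∀ i j : Fin 5, i ≠ j → slot (8 + w1 i j) MASK = 127 := by decide +kernel
theorem inUh : ∀ i < 8, slot i MASK = 127 := by decide +kernel
theorem inUn : ∀ u : Fin 240, invN u.val = 63 → slot (8 + u.val) MASK ≠ 127 := by decide +kernel

theorem inU_iff (a : chevE8.Idx) : InS a ↔ inU a = true := by
  unfold inU
  rw [Nat.beq_eq]
  rcases a with i | u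
  · exact ⟨fun _ => inUh i.val i.isLt, fun _ => trivial⟩
  · constructor
    · rintro (⟨i, j, hij, h⟩ | ⟨i, j, hij, h⟩)
      · have := inU0 i j hij
        rw [← h] at this
        exact this
      · have := inU1 i j hij
        rw [← h] at this
        exact this
    · intro h
      have hu : u.val < 240 := u.isLt
      rcases inv_ne ⟨u.val, hu⟩ with h1 | h1 | h1
      · exact absurd h (inUn ⟨u.val, hu⟩ h1)
      · exact Or.inl ⟨_, _, h1.2, h1.1.symm⟩
      · exact Or.inr ⟨_, _, h1.2, h1.1.symm⟩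

theorem prj_eq (v : chevE8.Idx → K) : prj v = prU v := by
  funext a
  unfold prj prU
  by_cases h : InS a
  · rw [if_pos h, if_pos ((inU_iff a).1 h)]
  · rw [if_neg h, if_neg (fun h' => h ((inU_iff a).2 h'))]

theorem iota_eq (g : K) (p : Matrix (Fin 5) (Fin 5) K × Matrix (Fin 5) (Fin 5) K) : iota g p = iot g p :=
  iota_Dg g p.1 p.2

/-! ### `X5M g` as a product of transvections -/

/-- right multiplication by `1 + g ^ s e_ij`, rows `< m` -/
noncomputable def colop (n i j s m : ℕ) : ℕ :=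
  Nat.rec (motive := fun _ => ℕ) n
    (fun r ih => upd ih (Nat.add (Nat.mul 5 r) j) (mu s (slot (Nat.add (Nat.mul 5 r) i) n))) m

theorem colop_ok {n i j s : ℕ} (hn : Ok n) (hs : s < 80) (m : ℕ) : Ok (colop n i j s m) := by
  induction m with
  | zero => exact hn
  | succ m ih => exact ok_upd ih (mu_lt hs (hn _))

theorem slot_colop {n i j s : ℕ} (hn : Ok n) (hs : s < 80) (hj : j < 5) (m k : ℕ) :
    slot k (colop n i j s m) = if k % 5 = j ∧ k / 5 < m then ad (slot k n) (mu s (slot (5 * (k / 5) + i) n)) else slot k n := by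
  induction m with
  | zero =>
    rw [if_neg (by omega)]
    rfl
  | succ m ih =>
    have e : colop n i j s (m + 1) = upd (colop n i j s m) (5 * m + j) (mu s (slot (5 * m + i) n)) := rfl
    have h1 : ad (slot (5 * m + j) (colop n i j s m)) (mu s (slot (5 * m + i) n)) < 81 :=
      ad_lt (colop_ok hn hs m _) (mu_lt hs (hn _))
    rw [e, slot_upd (lt_trans h1 (by norm_num))]
    by_cases hk : k = 5 * m + j
    · have h2 : k % 5 = j := by omega
      have h3 : k / 5 = m := by omega
      rw [if_pos hk, if_pos (by omega), ← hk, ih, if_neg (by omega), h3]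
    · rw [if_neg hk, ih]
      by_cases h4 : k % 5 = j ∧ k / 5 < m
      · rw [if_pos h4, if_pos (by omega)]
      · rw [if_neg h4, if_neg (by omega)]

/-- the matrix of a state -/
def matV (g : K) (n : ℕ) : Matrix (Fin 5) (Fin 5) K := Matrix.of fun a b => val g (slot (5 * a.val + b.val) n)

theorem matV_colop {g : K} (hg : g ^ 4 = 1 - g) (h3 : (3 : K) = 0) {n s : ℕ} (hn : Ok n) (hs : s < 80) (i j : Fin 5) :
    matV g (colop n i.val j.val s 5) = matV g n * Matrix.transvection i j (g ^ s) := by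
  ext a b
  have e : matV g (colop n i.val j.val s 5) a b = val g (slot (5 * a.val + b.val) (colop n i.val j.val s 5)) := rfl
  rw [e, slot_colop hn hs j.isLt]
  have h5 : (5 * a.val + b.val) / 5 = a.val := by omega
  have h6 : (5 * a.val + b.val) % 5 = b.val := by omega
  rw [h5, h6]
  by_cases hb : b = j
  · subst hb
    rw [if_pos ⟨rfl, a.isLt⟩, Matrix.mul_transvection_apply_same, val_add h3 (hn _) (mu_lt hs (hn _)),
      val_mu hg h3 hs (hn _)]
    rfl
  · rw [if_neg (fun h => hb (Fin.ext h.1)), Matrix.mul_transvection_apply_of_ne _ _ _ _ hb]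
    rfl

/-- transvections -/
noncomputable def tvt (g : K) (q : Fin 5 × Fin 5 × ℕ) : SpecialLinearGroup (Fin 5) K :=
  if h : q.1 ≠ q.2.1 then SpecialLinearGroup.transvection h (g ^ q.2.2) else 1

/-- `X5` -/
def sX : List (Fin 5 × Fin 5 × ℕ) := [(1, 0, 22), (2, 0, 34), (3, 0, 66), (4, 0, 38), (1, 2, 62), (0, 1, 48), (2, 1, 48), (3, 1, 76), (4, 1, 33), (2, 3, 79), (0, 2, 16), (3, 2, 11), (4, 2, 16), (3, 4, 33), (0, 3, 3), (1, 3, 48), (2, 3, 78), (4, 3, 7), (0, 4, 50), (1, 4, 66), (2, 4, 52), (3, 4, 9)]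

theorem sX_ok : ∀ q ∈ sX, q.1 ≠ q.2.1 ∧ q.2.2 < 80 := by decide +kernel

/-- the state of a product -/
noncomputable def runS (l : List (Fin 5 × Fin 5 × ℕ)) : ℕ → ℕ :=
  List.rec (motive := fun _ => ℕ → ℕ) (fun n => n) (fun q _ ih n => ih (colop n q.1.val q.2.1.val q.2.2 5)) l

theorem runS_val {g : K} (hg : g ^ 4 = 1 - g) (h3 : (3 : K) = 0) (l : List (Fin 5 × Fin 5 × ℕ))
    (hl : ∀ q ∈ l, q.1 ≠ q.2.1 ∧ q.2.2 < 80) : ∀ n, Ok n →
      matV g (runS l n) = matV g n * ((l.map (tvt g)).prod : SpecialLinearGroup (Fin 5) K).1 := by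
  induction l with
  | nil =>
    intro n _
    show matV g n = matV g n * 1
    rw [mul_one]
  | cons q l ih =>
    intro n hn
    have hq := hl q List.mem_cons_self
    have e : runS (q :: l) n = runS l (colop n q.1.val q.2.1.val q.2.2 5) := rfl
    rw [e, ih (fun q hq => hl q (List.mem_cons_of_mem _ hq)) _ (colop_ok hn hq.2 5), matV_colop hg h3 hn hq.2, List.map_cons,
      List.prod_cons]
    have e2 : tvt g q = SpecialLinearGroup.transvection hq.1 (g ^ q.2.2) := dif_pos hq.1
    rw [e2, mul_assoc]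
    rfl

/-- state of the identity -/
def N1 : ℕ := 1 + 2 ^ 42 + 2 ^ 84 + 2 ^ 126 + 2 ^ 168

theorem N1_slot : ∀ a b : Fin 5, slot (5 * a.val + b.val) N1 = if a = b then 1 else 0 := by decide +kernel

theorem N1_ok : Ok N1 := by
  intro k
  by_cases h : k < 25
  · have : ∀ k < 25, slot k N1 < 81 := by decide +kernel
    exact this k h
  · have h1 : slot k N1 = (N1 >>> (7 * k)) &&& (2 ^ 7 - 1) := rfl
    have h2 : N1 >>> (7 * k) = 0 := by
      rw [Nat.shiftRight_eq_div_pow]
      apply Nat.div_eq_of_lt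
      calc N1 < 2 ^ 175 := by decide +kernel
        _ ≤ 2 ^ (7 * k) := Nat.pow_le_pow_right (by norm_num) (by omega)
    rw [h1, h2]
    norm_num

theorem runS_sX : ∀ a b : Fin 5, slot (5 * a.val + b.val) (runS sX N1) = mu (xe a b) 1 := by decide +kernel

theorem xe_lt : ∀ a b : Fin 5, xe a b < 80 := by decide +kernel

/-- **`X5M g` is the product** -/
theorem sX_prod {g : K} (hg : g ^ 4 = 1 - g) (h3 : (3 : K) = 0) :
    ((sX.map (tvt g)).prod : SpecialLinearGroup (Fin 5) K).1 = X5M g := by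
  have h := runS_val hg h3 sX sX_ok N1 N1_ok
  have h1 : matV g N1 = 1 := by
    ext a b
    have e : matV g N1 a b = val g (slot (5 * a.val + b.val) N1) := rfl
    rw [e, N1_slot, Matrix.one_apply]
    split_ifs
    · exact val_one
    · exact val_zero
  rw [h1, one_mul] at h
  rw [← h]
  ext a b
  have e : matV g (runS sX N1) a b = val g (slot (5 * a.val + b.val) (runS sX N1)) := rfl
  rw [e, runS_sX, val_mu hg h3 (xe_lt a b) (by norm_num), val_one, mul_one]
  rfl

/-! ### the group element -/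

theorem sX_w : sX.map (fun q => (rt2 q.1 q.2.1, q.2.2)) = wX := by decide +kernel

theorem sg2_one : ∀ i j : Fin 5, sg2 i j = 1 := by decide +kernel

theorem ph2_prod (g : K) (l : List (Fin 5 × Fin 5 × ℕ)) (hl : ∀ q ∈ l, q.1 ≠ q.2.1 ∧ q.2.2 < 80) :
    ph2 K ((l.map (tvt g)).prod) = ((l.map fun q => (rt2 q.1 q.2.1, q.2.2)).map fun q => X q.1 (g ^ q.2)).prod := by
  induction l with
  | nil => simp
  | cons q l ih =>
    have hq := hl q List.mem_cons_self
    have e2 : tvt g q = SpecialLinearGroup.transvection hq.1 (g ^ q.2.2) := dif_pos hq.1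
    rw [List.map_cons, List.prod_cons, map_mul, ih fun q hq => hl q (List.mem_cons_of_mem _ hq), e2, ph2_tv, sg2_one,
      Int.cast_one, one_mul, List.map_cons, List.map_cons, List.prod_cons]

theorem coe_prod (g : K) (w : List (ℕ × ℕ)) :
    ((((w.map fun q => (X q.1 (g ^ q.2) : ↥(chevE8.group K))).prod : ↥(chevE8.group K)) : GL chevE8.Idx K) :
      Matrix chevE8.Idx chevE8.Idx K) = wMat chevE8 g w := by
  unfold wMat
  induction w with
  | nil => simp
  | cons q w ih =>
    rw [List.map_cons, List.prod_cons, Subgroup.coe_mul, Units.val_mul, ih, List.map_cons, List.prod_cons, coe_X, coe_xG]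

theorem wXi_eq : (wX.map fun q => (q.1, (q.2 + 40) % 80)).reverse = wXi := by decide +kernel

theorem inv_prod {g : K} (hg : g ^ 4 = 1 - g) (h3 : (3 : K) = 0) (w : List (ℕ × ℕ)) :
    ((w.map fun q => (X q.1 (g ^ q.2) : ↥(chevE8.group K))).prod)⁻¹ =
      (((w.map fun q => (q.1, (q.2 + 40) % 80)).reverse).map fun q => (X q.1 (g ^ q.2) : ↥(chevE8.group K))).prod := by
  rw [List.prod_inv_reverse, List.map_map, List.map_reverse, List.map_map]
  congr 2
  apply List.map_congr_left
  intro q _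
  show (X q.1 (g ^ q.2))⁻¹ = X q.1 (g ^ ((q.2 + 40) % 80))
  rw [pow_mod80 hg h3, pow_add, g40 hg h3, mul_neg_one, X_neg]

/-- **S5925, box G: the table of `x`.** -/
theorem tbl [CharP K 3] {g : K} (hg : g ^ 4 = 1 - g) {Z : SpecialLinearGroup (Fin 5) K}
    (hZ : (Z : Matrix (Fin 5) (Fin 5) K) = X5M g) : Tbl g (ph2 K Z) := by
  have h3 : (3 : K) = 0 := by exact_mod_cast CharP.cast_eq_zero K 3
  have e1 : Z = (sX.map (tvt g)).prod := Subtype.ext (hZ.trans (sX_prod hg h3).symm)
  have e2 : ph2 K Z = (wX.map fun q => (X q.1 (g ^ q.2) : ↥(chevE8.group K))).prod := by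
    rw [e1, ph2_prod g sX sX_ok, sX_w]
  refine ⟨fun p h0 h1 => ?_, fun p h0 h1 => ?_⟩
  · rw [e2, coe_prod, iota_eq, prj_eq, xp_io hg h3 h0 h1, iota_eq]
  · rw [e2, inv_prod hg h3, wXi_eq, coe_prod, iota_eq, prj_eq, xm_io hg h3 h0 h1, iota_eq]

end Cfsg.Agent.H671.E83
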