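import Cfsg.Agent.H671.E83.Tabs

/-!
# S5925, box G: `x` and `x⁻¹` on `sl(W₀) ⊕ sl(W₁)` (helper671)

`xp_io`, `xm_io` : the projection of `x^(±1) ι(A, B)` to `sl(W₀) ⊕ sl(W₁)`.
-/

set_option autoImplicit false
set_option linter.style.longLine false

namespace Cfsg.Agent.H671.E83

open Cfsg Cfsg.Lie Cfsg.Agent.ChevalleyStructure.SparseEng Cfsg.Agent.H576.E8L Matrix
open Cfsg.Agent.H138.E8L (e0 e1 Dg Di)
open Cfsg.Agent.H879.E83 (XP0 XP1 XM0 XM1 cr5 k00 k01 k10 k11 m00 m01 m10 m11 c1 c4 d2 d3)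

theorem cP1 : ([0, 1, 2, 3, 4, 5, 6, 7, 8, 9, 10, 11, 12, 13, 14, 15, 16, 17, 18, 19, 20, 21, 22, 23].all (chkX TP wX)) = true := by
  decide +kernel

theorem cP2 : ([25, 26, 27, 28, 29, 30, 31, 32, 33, 34, 35, 36, 37, 38, 39, 40, 41, 42, 43, 44, 45, 46, 47, 48].all (chkX TP wX)) = true := by
  decide +kernel

theorem cM1 : ([0, 1, 2, 3, 4, 5, 6, 7, 8, 9, 10, 11, 12, 13, 14, 15, 16, 17, 18, 19, 20, 21, 22, 23].all (chkX TM wXi)) = true := by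
  decide +kernel

theorem cM2 : ([25, 26, 27, 28, 29, 30, 31, 32, 33, 34, 35, 36, 37, 38, 39, 40, 41, 42, 43, 44, 45, 46, 47, 48].all (chkX TM wXi)) = true := by
  decide +kernel

theorem all50 {P : ℕ → Bool}
    (h1 : ([0, 1, 2, 3, 4, 5, 6, 7, 8, 9, 10, 11, 12, 13, 14, 15, 16, 17, 18, 19, 20, 21, 22, 23].all P) = true)
    (h2 : ([25, 26, 27, 28, 29, 30, 31, 32, 33, 34, 35, 36, 37, 38, 39, 40, 41, 42, 43, 44, 45, 46, 47, 48].all P) = true) :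
    ∀ x < 50, x ≠ 24 → x ≠ 49 → P x = true := by
  rw [List.all_eq_true] at h1 h2
  intro x hx h24 h49
  by_cases h : x < 24
  · apply h1
    interval_cases x <;> simp
  · apply h2
    interval_cases x <;> first | contradiction | simp

variable {K : Type*} [Field K]

/-- the coordinates of `io` -/
def inU (idx : chevE8.Idx) : Bool := Nat.beq (slot (pos idx) MASK) 127

/-- the projection -/
def prU (v : chevE8.Idx → K) : chevE8.Idx → K := fun idx => if inU idx = true then v idx else 0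

theorem mask_slot : ∀ k < 248, slot k MASK = 127 ∨ slot k MASK = 0 := by decide +kernel

theorem pos_lt (idx : chevE8.Idx) : pos idx < 248 := by
  rcases idx with i | u
  · have : i.val < 8 := i.isLt
    show i.val < 248
    omega
  · have : u.val < 240 := u.isLt
    show 8 + u.val < 248
    omega

theorem prU_sem (g : K) (n : ℕ) : prU (sem g n) = sem g (Nat.land n MASK) := by
  funext idx
  unfold prU sem inU
  rw [slot_land]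
  rcases mask_slot (pos idx) (pos_lt idx) with h | h
  · rw [h]
    have e : Nat.land (slot (pos idx) n) 127 = slot (pos idx) n := by
      have : Nat.land (slot (pos idx) n) 127 = slot (pos idx) n &&& (2 ^ 7 - 1) := rfl
      rw [this, Nat.and_two_pow_sub_one_eq_mod]
      exact Nat.mod_eq_of_lt (slot_lt _ _)
    rw [e]
    exact if_pos rfl
  · rw [h]
    have e : Nat.land (slot (pos idx) n) 0 = 0 := by
      have : Nat.land (slot (pos idx) n) 0 = slot (pos idx) n &&& 0 := rfl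
      rw [this, Nat.and_zero]
    rw [e, val_zero]
    exact if_neg (by decide)

theorem prU_add (v w : chevE8.Idx → K) : prU (v + w) = prU v + prU w := by
  funext idx
  show (if inU idx = true then v idx + w idx else 0) = (if inU idx = true then v idx else 0) + (if inU idx = true then w idx else 0)
  split_ifs
  · rfl
  · rw [add_zero]

theorem prU_smul (c : K) (v : chevE8.Idx → K) : prU (c • v) = c • prU v := by
  funext idx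
  show (if inU idx = true then c * v idx else 0) = c * (if inU idx = true then v idx else 0)
  split_ifs
  · rfl
  · rw [mul_zero]

/-- the roots of the words -/
def rts : List ℕ := [0, 1, 2, 3, 114, 115, 116, 117, 118, 119, 120, 121, 122, 123, 124, 125, 236, 237, 238, 239]

theorem rts_ok {r : ℕ} (hr : r ∈ rts) : chkT chevE8 r (TT r) = true := List.all_eq_true.1 TT_ok r hr

/-- **from the kernel check to pairs of matrices of trace zero** -/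
theorem word_io {g : K} (hg : g ^ 4 = 1 - g) (h3 : (3 : K) = 0) {T : ℕ → List (ℕ × ℕ)}
    (hT : ∀ x < 50, ∀ q ∈ T x, q.1 < 50) {w : List (ℕ × ℕ)} (hw : ∀ q ∈ w, q.1 ∈ rts)
    (hc : ∀ x < 50, x ≠ 24 → x ≠ 49 → chkX T w x = true)
    {p : Matrix (Fin 5) (Fin 5) K × Matrix (Fin 5) (Fin 5) K} (h0 : p.1.trace = 0) (h1 : p.2.trace = 0) :
    prU (wMat chevE8 g w *ᵥ iot g p) = iot g (linM g T p) := by
  let L : (Matrix (Fin 5) (Fin 5) K × Matrix (Fin 5) (Fin 5) K) →ₗ[K] (chevE8.Idx → K) :=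
    { toFun := fun p => prU (wMat chevE8 g w *ᵥ iot g p) - iot g (linM g T p)
      map_add' := fun p q => by
        rw [iot_add, Matrix.mulVec_add, prU_add, linM_add, iot_add]
        abel
      map_smul' := fun c p => by
        rw [iot_smul, Matrix.mulVec_smul, prU_smul, linM_smul, iot_smul, RingHom.id_apply, smul_sub] }
  have hL : L p = 0 := by
    refine bas_ext h3 L (g := g) (fun x hx h24 h49 => ?_) h0 h1
    show prU (wMat chevE8 g w *ᵥ iot g (mkM fun y => val g (bas x y))) - iot g (linM g T (mkM fun y => val g (bas x y))) = 0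
    rw [sub_eq_zero, iot_sem hg h3 (bas_lt x), w_sem hg h3 TT w (fun q hq => rts_ok (hw q hq)) (ok_mk (ioc_lt (scC_lt (bas_lt x))) _),
      prU_sem, linM_val hg h3 hT (bas_lt x), iot_sem hg h3 (fun y => (lin_val hg h3 T (bas_lt x) y).1)]
    congr 1
    exact Nat.eq_of_beq_eq_true (hc x hx h24 h49)
  exact sub_eq_zero.1 hL

/-! ### the tables -/

theorem mkM_eq {f : ℕ → K} {A B : Matrix (Fin 5) (Fin 5) K} (h0 : ∀ i j : Fin 5, f (5 * i.val + j.val) = A i j)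
    (h1 : ∀ i j : Fin 5, f (25 + (5 * i.val + j.val)) = B i j) : mkM f = (A, B) := by
  refine Prod.ext ?_ ?_
  · ext i j
    exact h0 i j
  · ext i j
    exact h1 i j

theorem p0_00 (g : K) (A B : Matrix (Fin 5) (Fin 5) K) : linK g TP (ent (A, B)) 0 = XP0 g A B 0 0 := by
  have e1 : linK g TP (ent (A, B)) 0 = g ^ 7 * A 1 1 + (g ^ 74 * A 2 2 + (g ^ 26 * A 3 3 + (g ^ 63 * A 4 4 + (g ^ 7 * B 0 0 + (g ^ 61 * B 1 1 + (g ^ 69 * B 3 3 + (g ^ 63 * B 4 4 + 0))))))) := rfl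
  have e2 : XP0 g A B 0 0 = cr5 (k00 g) A 0 + cr5 (k01 g) B 0 := rfl
  have e3 : cr5 (k00 g) A 0 = 0 * A 0 0 + g ^ 7 * A 1 1 + g ^ 74 * A 2 2 + g ^ 26 * A 3 3 + g ^ 63 * A 4 4 := by
    unfold cr5; rw [Fin.sum_univ_five]; rfl
  have e4 : cr5 (k01 g) B 0 = g ^ 7 * B 0 0 + g ^ 61 * B 1 1 + 0 * B 2 2 + g ^ 69 * B 3 3 + g ^ 63 * B 4 4 := by
    unfold cr5; rw [Fin.sum_univ_five]; rfl
  rw [e1, e2, e3, e4]; ring
theorem p0_01 (g : K) (A B : Matrix (Fin 5) (Fin 5) K) : linK g TP (ent (A, B)) 1 = XP0 g A B 0 1 := by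
  have e1 : linK g TP (ent (A, B)) 1 = g ^ 50 * A 0 1 + (g ^ 16 * B 1 4 + 0) := rfl
  have e2 : XP0 g A B 0 1 = g ^ 50 * A 0 1 + g ^ 16 * B 1 4 := rfl
  rw [e1, e2]; ring
theorem p0_02 (g : K) (A B : Matrix (Fin 5) (Fin 5) K) : linK g TP (ent (A, B)) 2 = XP0 g A B 0 2 := by
  have e1 : linK g TP (ent (A, B)) 2 = g ^ 0 * A 0 2 + 0 := rfl
  have e2 : XP0 g A B 0 2 = A 0 2 := rfl
  rw [e1, e2]; ring
theorem p0_03 (g : K) (A B : Matrix (Fin 5) (Fin 5) K) : linK g TP (ent (A, B)) 3 = XP0 g A B 0 3 := by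
  have e1 : linK g TP (ent (A, B)) 3 = 0 := rfl
  have e2 : XP0 g A B 0 3 = 0 := rfl
  rw [e1, e2]
theorem p0_04 (g : K) (A B : Matrix (Fin 5) (Fin 5) K) : linK g TP (ent (A, B)) 4 = XP0 g A B 0 4 := by
  have e1 : linK g TP (ent (A, B)) 4 = g ^ 70 * A 0 4 + (g ^ 8 * B 3 0 + 0) := rfl
  have e2 : XP0 g A B 0 4 = g ^ 70 * A 0 4 + g ^ 8 * B 3 0 := rfl
  rw [e1, e2]; ring
theorem p0_10 (g : K) (A B : Matrix (Fin 5) (Fin 5) K) : linK g TP (ent (A, B)) 5 = XP0 g A B 1 0 := by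
  have e1 : linK g TP (ent (A, B)) 5 = g ^ 70 * A 1 0 + (g ^ 64 * B 4 1 + 0) := rfl
  have e2 : XP0 g A B 1 0 = g ^ 70 * A 1 0 + g ^ 64 * B 4 1 := rfl
  rw [e1, e2]; ring
theorem p0_11 (g : K) (A B : Matrix (Fin 5) (Fin 5) K) : linK g TP (ent (A, B)) 6 = XP0 g A B 1 1 := by
  have e1 : linK g TP (ent (A, B)) 6 = g ^ 63 * A 0 0 + (g ^ 7 * A 2 2 + (g ^ 74 * A 3 3 + (g ^ 26 * A 4 4 + (g ^ 63 * B 0 0 + (g ^ 7 * B 1 1 + (g ^ 61 * B 2 2 + (g ^ 69 * B 4 4 + 0))))))) := rfl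
  have e2 : XP0 g A B 1 1 = cr5 (k00 g) A 1 + cr5 (k01 g) B 1 := rfl
  have e3 : cr5 (k00 g) A 1 = g ^ 63 * A 0 0 + 0 * A 1 1 + g ^ 7 * A 2 2 + g ^ 74 * A 3 3 + g ^ 26 * A 4 4 := by
    unfold cr5; rw [Fin.sum_univ_five]; rfl
  have e4 : cr5 (k01 g) B 1 = g ^ 63 * B 0 0 + g ^ 7 * B 1 1 + g ^ 61 * B 2 2 + 0 * B 3 3 + g ^ 69 * B 4 4 := by
    unfold cr5; rw [Fin.sum_univ_five]; rfl
  rw [e1, e2, e3, e4]; ring
theorem p0_12 (g : K) (A B : Matrix (Fin 5) (Fin 5) K) : linK g TP (ent (A, B)) 7 = XP0 g A B 1 2 := by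
  have e1 : linK g TP (ent (A, B)) 7 = g ^ 50 * A 1 2 + (g ^ 24 * B 2 0 + 0) := rfl
  have e2 : XP0 g A B 1 2 = g ^ 50 * A 1 2 + g ^ 24 * B 2 0 := rfl
  rw [e1, e2]; ring
theorem p0_13 (g : K) (A B : Matrix (Fin 5) (Fin 5) K) : linK g TP (ent (A, B)) 8 = XP0 g A B 1 3 := by
  have e1 : linK g TP (ent (A, B)) 8 = g ^ 0 * A 1 3 + 0 := rfl
  have e2 : XP0 g A B 1 3 = A 1 3 := rfl
  rw [e1, e2]; ring
theorem p0_14 (g : K) (A B : Matrix (Fin 5) (Fin 5) K) : linK g TP (ent (A, B)) 9 = XP0 g A B 1 4 := by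
  have e1 : linK g TP (ent (A, B)) 9 = 0 := rfl
  have e2 : XP0 g A B 1 4 = 0 := rfl
  rw [e1, e2]
theorem p0_20 (g : K) (A B : Matrix (Fin 5) (Fin 5) K) : linK g TP (ent (A, B)) 10 = XP0 g A B 2 0 := by
  have e1 : linK g TP (ent (A, B)) 10 = 0 := rfl
  have e2 : XP0 g A B 2 0 = 0 := rfl
  rw [e1, e2]
theorem p0_21 (g : K) (A B : Matrix (Fin 5) (Fin 5) K) : linK g TP (ent (A, B)) 11 = XP0 g A B 2 1 := by
  have e1 : linK g TP (ent (A, B)) 11 = g ^ 70 * A 2 1 + (g ^ 56 * B 0 2 + 0) := rfl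
  have e2 : XP0 g A B 2 1 = g ^ 70 * A 2 1 + g ^ 56 * B 0 2 := rfl
  rw [e1, e2]; ring
theorem p0_22 (g : K) (A B : Matrix (Fin 5) (Fin 5) K) : linK g TP (ent (A, B)) 12 = XP0 g A B 2 2 := by
  have e1 : linK g TP (ent (A, B)) 12 = g ^ 26 * A 0 0 + (g ^ 63 * A 1 1 + (g ^ 7 * A 3 3 + (g ^ 74 * A 4 4 + (g ^ 69 * B 0 0 + (g ^ 63 * B 1 1 + (g ^ 7 * B 2 2 + (g ^ 61 * B 3 3 + 0))))))) := rfl
  have e2 : XP0 g A B 2 2 = cr5 (k00 g) A 2 + cr5 (k01 g) B 2 := rfl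
  have e3 : cr5 (k00 g) A 2 = g ^ 26 * A 0 0 + g ^ 63 * A 1 1 + 0 * A 2 2 + g ^ 7 * A 3 3 + g ^ 74 * A 4 4 := by
    unfold cr5; rw [Fin.sum_univ_five]; rfl
  have e4 : cr5 (k01 g) B 2 = g ^ 69 * B 0 0 + g ^ 63 * B 1 1 + g ^ 7 * B 2 2 + g ^ 61 * B 3 3 + 0 * B 4 4 := by
    unfold cr5; rw [Fin.sum_univ_five]; rfl
  rw [e1, e2, e3, e4]; ring
theorem p0_23 (g : K) (A B : Matrix (Fin 5) (Fin 5) K) : linK g TP (ent (A, B)) 13 = XP0 g A B 2 3 := by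
  have e1 : linK g TP (ent (A, B)) 13 = g ^ 50 * A 2 3 + (g ^ 48 * B 3 1 + 0) := rfl
  have e2 : XP0 g A B 2 3 = g ^ 50 * A 2 3 + g ^ 48 * B 3 1 := rfl
  rw [e1, e2]; ring
theorem p0_24 (g : K) (A B : Matrix (Fin 5) (Fin 5) K) : linK g TP (ent (A, B)) 14 = XP0 g A B 2 4 := by
  have e1 : linK g TP (ent (A, B)) 14 = g ^ 0 * A 2 4 + 0 := rfl
  have e2 : XP0 g A B 2 4 = A 2 4 := rfl
  rw [e1, e2]; ring
theorem p0_30 (g : K) (A B : Matrix (Fin 5) (Fin 5) K) : linK g TP (ent (A, B)) 15 = XP0 g A B 3 0 := by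
  have e1 : linK g TP (ent (A, B)) 15 = g ^ 0 * A 3 0 + 0 := rfl
  have e2 : XP0 g A B 3 0 = A 3 0 := rfl
  rw [e1, e2]; ring
theorem p0_31 (g : K) (A B : Matrix (Fin 5) (Fin 5) K) : linK g TP (ent (A, B)) 16 = XP0 g A B 3 1 := by
  have e1 : linK g TP (ent (A, B)) 16 = 0 := rfl
  have e2 : XP0 g A B 3 1 = 0 := rfl
  rw [e1, e2]
theorem p0_32 (g : K) (A B : Matrix (Fin 5) (Fin 5) K) : linK g TP (ent (A, B)) 17 = XP0 g A B 3 2 := by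
  have e1 : linK g TP (ent (A, B)) 17 = g ^ 70 * A 3 2 + (g ^ 32 * B 1 3 + 0) := rfl
  have e2 : XP0 g A B 3 2 = g ^ 70 * A 3 2 + g ^ 32 * B 1 3 := rfl
  rw [e1, e2]; ring
theorem p0_33 (g : K) (A B : Matrix (Fin 5) (Fin 5) K) : linK g TP (ent (A, B)) 18 = XP0 g A B 3 3 := by
  have e1 : linK g TP (ent (A, B)) 18 = g ^ 74 * A 0 0 + (g ^ 26 * A 1 1 + (g ^ 63 * A 2 2 + (g ^ 7 * A 4 4 + (g ^ 69 * B 1 1 + (g ^ 63 * B 2 2 + (g ^ 7 * B 3 3 + (g ^ 61 * B 4 4 + 0))))))) := rfl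
  have e2 : XP0 g A B 3 3 = cr5 (k00 g) A 3 + cr5 (k01 g) B 3 := rfl
  have e3 : cr5 (k00 g) A 3 = g ^ 74 * A 0 0 + g ^ 26 * A 1 1 + g ^ 63 * A 2 2 + 0 * A 3 3 + g ^ 7 * A 4 4 := by
    unfold cr5; rw [Fin.sum_univ_five]; rfl
  have e4 : cr5 (k01 g) B 3 = 0 * B 0 0 + g ^ 69 * B 1 1 + g ^ 63 * B 2 2 + g ^ 7 * B 3 3 + g ^ 61 * B 4 4 := by
    unfold cr5; rw [Fin.sum_univ_five]; rfl
  rw [e1, e2, e3, e4]; ring
theorem p0_34 (g : K) (A B : Matrix (Fin 5) (Fin 5) K) : linK g TP (ent (A, B)) 19 = XP0 g A B 3 4 := by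
  have e1 : linK g TP (ent (A, B)) 19 = g ^ 50 * A 3 4 + (g ^ 60 * B 4 2 + 0) := rfl
  have e2 : XP0 g A B 3 4 = g ^ 50 * A 3 4 + g ^ 60 * B 4 2 := rfl
  rw [e1, e2]; ring
theorem p0_40 (g : K) (A B : Matrix (Fin 5) (Fin 5) K) : linK g TP (ent (A, B)) 20 = XP0 g A B 4 0 := by
  have e1 : linK g TP (ent (A, B)) 20 = g ^ 50 * A 4 0 + (g ^ 72 * B 0 3 + 0) := rfl
  have e2 : XP0 g A B 4 0 = g ^ 50 * A 4 0 + g ^ 72 * B 0 3 := rfl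
  rw [e1, e2]; ring
theorem p0_41 (g : K) (A B : Matrix (Fin 5) (Fin 5) K) : linK g TP (ent (A, B)) 21 = XP0 g A B 4 1 := by
  have e1 : linK g TP (ent (A, B)) 21 = g ^ 0 * A 4 1 + 0 := rfl
  have e2 : XP0 g A B 4 1 = A 4 1 := rfl
  rw [e1, e2]; ring
theorem p0_42 (g : K) (A B : Matrix (Fin 5) (Fin 5) K) : linK g TP (ent (A, B)) 22 = XP0 g A B 4 2 := by
  have e1 : linK g TP (ent (A, B)) 22 = 0 := rfl
  have e2 : XP0 g A B 4 2 = 0 := rfl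
  rw [e1, e2]
theorem p0_43 (g : K) (A B : Matrix (Fin 5) (Fin 5) K) : linK g TP (ent (A, B)) 23 = XP0 g A B 4 3 := by
  have e1 : linK g TP (ent (A, B)) 23 = g ^ 70 * A 4 3 + (g ^ 20 * B 2 4 + 0) := rfl
  have e2 : XP0 g A B 4 3 = g ^ 70 * A 4 3 + g ^ 20 * B 2 4 := rfl
  rw [e1, e2]; ring
theorem p0_44 (g : K) (A B : Matrix (Fin 5) (Fin 5) K) : linK g TP (ent (A, B)) 24 = XP0 g A B 4 4 := by
  have e1 : linK g TP (ent (A, B)) 24 = g ^ 7 * A 0 0 + (g ^ 74 * A 1 1 + (g ^ 26 * A 2 2 + (g ^ 63 * A 3 3 + (g ^ 61 * B 0 0 + (g ^ 69 * B 2 2 + (g ^ 63 * B 3 3 + (g ^ 7 * B 4 4 + 0))))))) := rfl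
  have e2 : XP0 g A B 4 4 = cr5 (k00 g) A 4 + cr5 (k01 g) B 4 := rfl
  have e3 : cr5 (k00 g) A 4 = g ^ 7 * A 0 0 + g ^ 74 * A 1 1 + g ^ 26 * A 2 2 + g ^ 63 * A 3 3 + 0 * A 4 4 := by
    unfold cr5; rw [Fin.sum_univ_five]; rfl
  have e4 : cr5 (k01 g) B 4 = g ^ 61 * B 0 0 + 0 * B 1 1 + g ^ 69 * B 2 2 + g ^ 63 * B 3 3 + g ^ 7 * B 4 4 := by
    unfold cr5; rw [Fin.sum_univ_five]; rfl
  rw [e1, e2, e3, e4]; ring

theorem p1_00 (g : K) (A B : Matrix (Fin 5) (Fin 5) K) : linK g TP (ent (A, B)) 25 = XP1 g A B 0 0 := by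
  have e1 : linK g TP (ent (A, B)) 25 = g ^ 63 * A 0 0 + (g ^ 7 * A 1 1 + (g ^ 61 * A 2 2 + (g ^ 69 * A 4 4 + (g ^ 62 * B 1 1 + (g ^ 29 * B 2 2 + (g ^ 21 * B 3 3 + (g ^ 78 * B 4 4 + 0))))))) := rfl
  have e2 : XP1 g A B 0 0 = cr5 (k10 g) A 0 + cr5 (k11 g) B 0 := rfl
  have e3 : cr5 (k10 g) A 0 = g ^ 63 * A 0 0 + g ^ 7 * A 1 1 + g ^ 61 * A 2 2 + 0 * A 3 3 + g ^ 69 * A 4 4 := by
    unfold cr5; rw [Fin.sum_univ_five]; rfl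
  have e4 : cr5 (k11 g) B 0 = 0 * B 0 0 + g ^ 62 * B 1 1 + g ^ 29 * B 2 2 + g ^ 21 * B 3 3 + g ^ 78 * B 4 4 := by
    unfold cr5; rw [Fin.sum_univ_five]; rfl
  rw [e1, e2, e3, e4]; ring
theorem p1_01 (g : K) (A B : Matrix (Fin 5) (Fin 5) K) : linK g TP (ent (A, B)) 26 = XP1 g A B 0 1 := by
  have e1 : linK g TP (ent (A, B)) 26 = g ^ 0 * B 0 1 + 0 := rfl
  have e2 : XP1 g A B 0 1 = B 0 1 := rfl
  rw [e1, e2]; ring
theorem p1_02 (g : K) (A B : Matrix (Fin 5) (Fin 5) K) : linK g TP (ent (A, B)) 27 = XP1 g A B 0 2 := by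
  have e1 : linK g TP (ent (A, B)) 27 = g ^ 50 * B 0 2 + (g ^ 64 * A 2 1 + 0) := rfl
  have e2 : XP1 g A B 0 2 = g ^ 50 * B 0 2 + g ^ 64 * A 2 1 := rfl
  rw [e1, e2]; ring
theorem p1_03 (g : K) (A B : Matrix (Fin 5) (Fin 5) K) : linK g TP (ent (A, B)) 28 = XP1 g A B 0 3 := by
  have e1 : linK g TP (ent (A, B)) 28 = g ^ 70 * B 0 3 + (g ^ 48 * A 4 0 + 0) := rfl
  have e2 : XP1 g A B 0 3 = g ^ 70 * B 0 3 + g ^ 48 * A 4 0 := rfl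
  rw [e1, e2]; ring
theorem p1_04 (g : K) (A B : Matrix (Fin 5) (Fin 5) K) : linK g TP (ent (A, B)) 29 = XP1 g A B 0 4 := by
  have e1 : linK g TP (ent (A, B)) 29 = 0 := rfl
  have e2 : XP1 g A B 0 4 = 0 := rfl
  rw [e1, e2]
theorem p1_10 (g : K) (A B : Matrix (Fin 5) (Fin 5) K) : linK g TP (ent (A, B)) 30 = XP1 g A B 1 0 := by
  have e1 : linK g TP (ent (A, B)) 30 = 0 := rfl
  have e2 : XP1 g A B 1 0 = 0 := rfl
  rw [e1, e2]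
theorem p1_11 (g : K) (A B : Matrix (Fin 5) (Fin 5) K) : linK g TP (ent (A, B)) 31 = XP1 g A B 1 1 := by
  have e1 : linK g TP (ent (A, B)) 31 = g ^ 69 * A 0 0 + (g ^ 63 * A 1 1 + (g ^ 7 * A 2 2 + (g ^ 61 * A 3 3 + (g ^ 78 * B 0 0 + (g ^ 62 * B 2 2 + (g ^ 29 * B 3 3 + (g ^ 21 * B 4 4 + 0))))))) := rfl
  have e2 : XP1 g A B 1 1 = cr5 (k10 g) A 1 + cr5 (k11 g) B 1 := rfl
  have e3 : cr5 (k10 g) A 1 = g ^ 69 * A 0 0 + g ^ 63 * A 1 1 + g ^ 7 * A 2 2 + g ^ 61 * A 3 3 + 0 * A 4 4 := by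
    unfold cr5; rw [Fin.sum_univ_five]; rfl
  have e4 : cr5 (k11 g) B 1 = g ^ 78 * B 0 0 + 0 * B 1 1 + g ^ 62 * B 2 2 + g ^ 29 * B 3 3 + g ^ 21 * B 4 4 := by
    unfold cr5; rw [Fin.sum_univ_five]; rfl
  rw [e1, e2, e3, e4]; ring
theorem p1_12 (g : K) (A B : Matrix (Fin 5) (Fin 5) K) : linK g TP (ent (A, B)) 32 = XP1 g A B 1 2 := by
  have e1 : linK g TP (ent (A, B)) 32 = g ^ 0 * B 1 2 + 0 := rfl
  have e2 : XP1 g A B 1 2 = B 1 2 := rfl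
  rw [e1, e2]; ring
theorem p1_13 (g : K) (A B : Matrix (Fin 5) (Fin 5) K) : linK g TP (ent (A, B)) 33 = XP1 g A B 1 3 := by
  have e1 : linK g TP (ent (A, B)) 33 = g ^ 50 * B 1 3 + (g ^ 8 * A 3 2 + 0) := rfl
  have e2 : XP1 g A B 1 3 = g ^ 50 * B 1 3 + g ^ 8 * A 3 2 := rfl
  rw [e1, e2]; ring
theorem p1_14 (g : K) (A B : Matrix (Fin 5) (Fin 5) K) : linK g TP (ent (A, B)) 34 = XP1 g A B 1 4 := by
  have e1 : linK g TP (ent (A, B)) 34 = g ^ 70 * B 1 4 + (g ^ 24 * A 0 1 + 0) := rfl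
  have e2 : XP1 g A B 1 4 = g ^ 70 * B 1 4 + g ^ 24 * A 0 1 := rfl
  rw [e1, e2]; ring
theorem p1_20 (g : K) (A B : Matrix (Fin 5) (Fin 5) K) : linK g TP (ent (A, B)) 35 = XP1 g A B 2 0 := by
  have e1 : linK g TP (ent (A, B)) 35 = g ^ 70 * B 2 0 + (g ^ 16 * A 1 2 + 0) := rfl
  have e2 : XP1 g A B 2 0 = g ^ 70 * B 2 0 + g ^ 16 * A 1 2 := rfl
  rw [e1, e2]; ring
theorem p1_21 (g : K) (A B : Matrix (Fin 5) (Fin 5) K) : linK g TP (ent (A, B)) 36 = XP1 g A B 2 1 := by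
  have e1 : linK g TP (ent (A, B)) 36 = 0 := rfl
  have e2 : XP1 g A B 2 1 = 0 := rfl
  rw [e1, e2]
theorem p1_22 (g : K) (A B : Matrix (Fin 5) (Fin 5) K) : linK g TP (ent (A, B)) 37 = XP1 g A B 2 2 := by
  have e1 : linK g TP (ent (A, B)) 37 = g ^ 69 * A 1 1 + (g ^ 63 * A 2 2 + (g ^ 7 * A 3 3 + (g ^ 61 * A 4 4 + (g ^ 21 * B 0 0 + (g ^ 78 * B 1 1 + (g ^ 62 * B 3 3 + (g ^ 29 * B 4 4 + 0))))))) := rfl
  have e2 : XP1 g A B 2 2 = cr5 (k10 g) A 2 + cr5 (k11 g) B 2 := rfl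
  have e3 : cr5 (k10 g) A 2 = 0 * A 0 0 + g ^ 69 * A 1 1 + g ^ 63 * A 2 2 + g ^ 7 * A 3 3 + g ^ 61 * A 4 4 := by
    unfold cr5; rw [Fin.sum_univ_five]; rfl
  have e4 : cr5 (k11 g) B 2 = g ^ 21 * B 0 0 + g ^ 78 * B 1 1 + 0 * B 2 2 + g ^ 62 * B 3 3 + g ^ 29 * B 4 4 := by
    unfold cr5; rw [Fin.sum_univ_five]; rfl
  rw [e1, e2, e3, e4]; ring
theorem p1_23 (g : K) (A B : Matrix (Fin 5) (Fin 5) K) : linK g TP (ent (A, B)) 38 = XP1 g A B 2 3 := by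
  have e1 : linK g TP (ent (A, B)) 38 = g ^ 0 * B 2 3 + 0 := rfl
  have e2 : XP1 g A B 2 3 = B 2 3 := rfl
  rw [e1, e2]; ring
theorem p1_24 (g : K) (A B : Matrix (Fin 5) (Fin 5) K) : linK g TP (ent (A, B)) 39 = XP1 g A B 2 4 := by
  have e1 : linK g TP (ent (A, B)) 39 = g ^ 50 * B 2 4 + (g ^ 20 * A 4 3 + 0) := rfl
  have e2 : XP1 g A B 2 4 = g ^ 50 * B 2 4 + g ^ 20 * A 4 3 := rfl
  rw [e1, e2]; ring
theorem p1_30 (g : K) (A B : Matrix (Fin 5) (Fin 5) K) : linK g TP (ent (A, B)) 40 = XP1 g A B 3 0 := by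
  have e1 : linK g TP (ent (A, B)) 40 = g ^ 50 * B 3 0 + (g ^ 32 * A 0 4 + 0) := rfl
  have e2 : XP1 g A B 3 0 = g ^ 50 * B 3 0 + g ^ 32 * A 0 4 := rfl
  rw [e1, e2]; ring
theorem p1_31 (g : K) (A B : Matrix (Fin 5) (Fin 5) K) : linK g TP (ent (A, B)) 41 = XP1 g A B 3 1 := by
  have e1 : linK g TP (ent (A, B)) 41 = g ^ 70 * B 3 1 + (g ^ 72 * A 2 3 + 0) := rfl
  have e2 : XP1 g A B 3 1 = g ^ 70 * B 3 1 + g ^ 72 * A 2 3 := rfl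
  rw [e1, e2]; ring
theorem p1_32 (g : K) (A B : Matrix (Fin 5) (Fin 5) K) : linK g TP (ent (A, B)) 42 = XP1 g A B 3 2 := by
  have e1 : linK g TP (ent (A, B)) 42 = 0 := rfl
  have e2 : XP1 g A B 3 2 = 0 := rfl
  rw [e1, e2]
theorem p1_33 (g : K) (A B : Matrix (Fin 5) (Fin 5) K) : linK g TP (ent (A, B)) 43 = XP1 g A B 3 3 := by
  have e1 : linK g TP (ent (A, B)) 43 = g ^ 61 * A 0 0 + (g ^ 69 * A 2 2 + (g ^ 63 * A 3 3 + (g ^ 7 * A 4 4 + (g ^ 29 * B 0 0 + (g ^ 21 * B 1 1 + (g ^ 78 * B 2 2 + (g ^ 62 * B 4 4 + 0))))))) := rfl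
  have e2 : XP1 g A B 3 3 = cr5 (k10 g) A 3 + cr5 (k11 g) B 3 := rfl
  have e3 : cr5 (k10 g) A 3 = g ^ 61 * A 0 0 + 0 * A 1 1 + g ^ 69 * A 2 2 + g ^ 63 * A 3 3 + g ^ 7 * A 4 4 := by
    unfold cr5; rw [Fin.sum_univ_five]; rfl
  have e4 : cr5 (k11 g) B 3 = g ^ 29 * B 0 0 + g ^ 21 * B 1 1 + g ^ 78 * B 2 2 + 0 * B 3 3 + g ^ 62 * B 4 4 := by
    unfold cr5; rw [Fin.sum_univ_five]; rfl
  rw [e1, e2, e3, e4]; ring
theorem p1_34 (g : K) (A B : Matrix (Fin 5) (Fin 5) K) : linK g TP (ent (A, B)) 44 = XP1 g A B 3 4 := by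
  have e1 : linK g TP (ent (A, B)) 44 = g ^ 0 * B 3 4 + 0 := rfl
  have e2 : XP1 g A B 3 4 = B 3 4 := rfl
  rw [e1, e2]; ring
theorem p1_40 (g : K) (A B : Matrix (Fin 5) (Fin 5) K) : linK g TP (ent (A, B)) 45 = XP1 g A B 4 0 := by
  have e1 : linK g TP (ent (A, B)) 45 = g ^ 0 * B 4 0 + 0 := rfl
  have e2 : XP1 g A B 4 0 = B 4 0 := rfl
  rw [e1, e2]; ring
theorem p1_41 (g : K) (A B : Matrix (Fin 5) (Fin 5) K) : linK g TP (ent (A, B)) 46 = XP1 g A B 4 1 := by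
  have e1 : linK g TP (ent (A, B)) 46 = g ^ 50 * B 4 1 + (g ^ 56 * A 1 0 + 0) := rfl
  have e2 : XP1 g A B 4 1 = g ^ 50 * B 4 1 + g ^ 56 * A 1 0 := rfl
  rw [e1, e2]; ring
theorem p1_42 (g : K) (A B : Matrix (Fin 5) (Fin 5) K) : linK g TP (ent (A, B)) 47 = XP1 g A B 4 2 := by
  have e1 : linK g TP (ent (A, B)) 47 = g ^ 70 * B 4 2 + (g ^ 60 * A 3 4 + 0) := rfl
  have e2 : XP1 g A B 4 2 = g ^ 70 * B 4 2 + g ^ 60 * A 3 4 := rfl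
  rw [e1, e2]; ring
theorem p1_43 (g : K) (A B : Matrix (Fin 5) (Fin 5) K) : linK g TP (ent (A, B)) 48 = XP1 g A B 4 3 := by
  have e1 : linK g TP (ent (A, B)) 48 = 0 := rfl
  have e2 : XP1 g A B 4 3 = 0 := rfl
  rw [e1, e2]
theorem p1_44 (g : K) (A B : Matrix (Fin 5) (Fin 5) K) : linK g TP (ent (A, B)) 49 = XP1 g A B 4 4 := by
  have e1 : linK g TP (ent (A, B)) 49 = g ^ 7 * A 0 0 + (g ^ 61 * A 1 1 + (g ^ 69 * A 3 3 + (g ^ 63 * A 4 4 + (g ^ 62 * B 0 0 + (g ^ 29 * B 1 1 + (g ^ 21 * B 2 2 + (g ^ 78 * B 3 3 + 0))))))) := rfl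
  have e2 : XP1 g A B 4 4 = cr5 (k10 g) A 4 + cr5 (k11 g) B 4 := rfl
  have e3 : cr5 (k10 g) A 4 = g ^ 7 * A 0 0 + g ^ 61 * A 1 1 + 0 * A 2 2 + g ^ 69 * A 3 3 + g ^ 63 * A 4 4 := by
    unfold cr5; rw [Fin.sum_univ_five]; rfl
  have e4 : cr5 (k11 g) B 4 = g ^ 62 * B 0 0 + g ^ 29 * B 1 1 + g ^ 21 * B 2 2 + g ^ 78 * B 3 3 + 0 * B 4 4 := by
    unfold cr5; rw [Fin.sum_univ_five]; rfl
  rw [e1, e2, e3, e4]; ring

theorem m0_00 (g : K) (A B : Matrix (Fin 5) (Fin 5) K) : linK g TM (ent (A, B)) 0 = XM0 g A B 0 0 := by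
  have e1 : linK g TM (ent (A, B)) 0 = g ^ 63 * A 1 1 + (g ^ 26 * A 2 2 + (g ^ 74 * A 3 3 + (g ^ 7 * A 4 4 + (g ^ 63 * B 0 0 + (g ^ 69 * B 1 1 + (g ^ 61 * B 3 3 + (g ^ 7 * B 4 4 + 0))))))) := rfl
  have e2 : XM0 g A B 0 0 = cr5 (m00 g) A 0 + cr5 (m01 g) B 0 := rfl
  have e3 : cr5 (m00 g) A 0 = 0 * A 0 0 + g ^ 63 * A 1 1 + g ^ 26 * A 2 2 + g ^ 74 * A 3 3 + g ^ 7 * A 4 4 := by
    unfold cr5; rw [Fin.sum_univ_five]; rfl
  have e4 : cr5 (m01 g) B 0 = g ^ 63 * B 0 0 + g ^ 69 * B 1 1 + 0 * B 2 2 + g ^ 61 * B 3 3 + g ^ 7 * B 4 4 := by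
    unfold cr5; rw [Fin.sum_univ_five]; rfl
  rw [e1, e2, e3, e4]; ring
theorem m0_01 (g : K) (A B : Matrix (Fin 5) (Fin 5) K) : linK g TM (ent (A, B)) 1 = XM0 g A B 0 1 := by
  have e1 : linK g TM (ent (A, B)) 1 = g ^ 70 * A 0 1 + ((-g ^ 16) * B 1 4 + 0) := rfl
  have e2 : XM0 g A B 0 1 = g ^ 70 * A 0 1 - g ^ 16 * B 1 4 := rfl
  rw [e1, e2]; ring
theorem m0_02 (g : K) (A B : Matrix (Fin 5) (Fin 5) K) : linK g TM (ent (A, B)) 2 = XM0 g A B 0 2 := by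
  have e1 : linK g TM (ent (A, B)) 2 = 0 := rfl
  have e2 : XM0 g A B 0 2 = 0 := rfl
  rw [e1, e2]
theorem m0_03 (g : K) (A B : Matrix (Fin 5) (Fin 5) K) : linK g TM (ent (A, B)) 3 = XM0 g A B 0 3 := by
  have e1 : linK g TM (ent (A, B)) 3 = g ^ 0 * A 0 3 + 0 := rfl
  have e2 : XM0 g A B 0 3 = A 0 3 := rfl
  rw [e1, e2]; ring
theorem m0_04 (g : K) (A B : Matrix (Fin 5) (Fin 5) K) : linK g TM (ent (A, B)) 4 = XM0 g A B 0 4 := by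
  have e1 : linK g TM (ent (A, B)) 4 = g ^ 50 * A 0 4 + ((-g ^ 8) * B 3 0 + 0) := rfl
  have e2 : XM0 g A B 0 4 = g ^ 50 * A 0 4 - g ^ 8 * B 3 0 := rfl
  rw [e1, e2]; ring
theorem m0_10 (g : K) (A B : Matrix (Fin 5) (Fin 5) K) : linK g TM (ent (A, B)) 5 = XM0 g A B 1 0 := by
  have e1 : linK g TM (ent (A, B)) 5 = g ^ 50 * A 1 0 + ((-g ^ 64) * B 4 1 + 0) := rfl
  have e2 : XM0 g A B 1 0 = g ^ 50 * A 1 0 - g ^ 64 * B 4 1 := rfl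
  rw [e1, e2]; ring
theorem m0_11 (g : K) (A B : Matrix (Fin 5) (Fin 5) K) : linK g TM (ent (A, B)) 6 = XM0 g A B 1 1 := by
  have e1 : linK g TM (ent (A, B)) 6 = g ^ 7 * A 0 0 + (g ^ 63 * A 2 2 + (g ^ 26 * A 3 3 + (g ^ 74 * A 4 4 + (g ^ 7 * B 0 0 + (g ^ 63 * B 1 1 + (g ^ 69 * B 2 2 + (g ^ 61 * B 4 4 + 0))))))) := rfl
  have e2 : XM0 g A B 1 1 = cr5 (m00 g) A 1 + cr5 (m01 g) B 1 := rfl
  have e3 : cr5 (m00 g) A 1 = g ^ 7 * A 0 0 + 0 * A 1 1 + g ^ 63 * A 2 2 + g ^ 26 * A 3 3 + g ^ 74 * A 4 4 := by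
    unfold cr5; rw [Fin.sum_univ_five]; rfl
  have e4 : cr5 (m01 g) B 1 = g ^ 7 * B 0 0 + g ^ 63 * B 1 1 + g ^ 69 * B 2 2 + 0 * B 3 3 + g ^ 61 * B 4 4 := by
    unfold cr5; rw [Fin.sum_univ_five]; rfl
  rw [e1, e2, e3, e4]; ring
theorem m0_12 (g : K) (A B : Matrix (Fin 5) (Fin 5) K) : linK g TM (ent (A, B)) 7 = XM0 g A B 1 2 := by
  have e1 : linK g TM (ent (A, B)) 7 = g ^ 70 * A 1 2 + ((-g ^ 24) * B 2 0 + 0) := rfl
  have e2 : XM0 g A B 1 2 = g ^ 70 * A 1 2 - g ^ 24 * B 2 0 := rfl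
  rw [e1, e2]; ring
theorem m0_13 (g : K) (A B : Matrix (Fin 5) (Fin 5) K) : linK g TM (ent (A, B)) 8 = XM0 g A B 1 3 := by
  have e1 : linK g TM (ent (A, B)) 8 = 0 := rfl
  have e2 : XM0 g A B 1 3 = 0 := rfl
  rw [e1, e2]
theorem m0_14 (g : K) (A B : Matrix (Fin 5) (Fin 5) K) : linK g TM (ent (A, B)) 9 = XM0 g A B 1 4 := by
  have e1 : linK g TM (ent (A, B)) 9 = g ^ 0 * A 1 4 + 0 := rfl
  have e2 : XM0 g A B 1 4 = A 1 4 := rfl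
  rw [e1, e2]; ring
theorem m0_20 (g : K) (A B : Matrix (Fin 5) (Fin 5) K) : linK g TM (ent (A, B)) 10 = XM0 g A B 2 0 := by
  have e1 : linK g TM (ent (A, B)) 10 = g ^ 0 * A 2 0 + 0 := rfl
  have e2 : XM0 g A B 2 0 = A 2 0 := rfl
  rw [e1, e2]; ring
theorem m0_21 (g : K) (A B : Matrix (Fin 5) (Fin 5) K) : linK g TM (ent (A, B)) 11 = XM0 g A B 2 1 := by
  have e1 : linK g TM (ent (A, B)) 11 = g ^ 50 * A 2 1 + ((-g ^ 56) * B 0 2 + 0) := rfl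
  have e2 : XM0 g A B 2 1 = g ^ 50 * A 2 1 - g ^ 56 * B 0 2 := rfl
  rw [e1, e2]; ring
theorem m0_22 (g : K) (A B : Matrix (Fin 5) (Fin 5) K) : linK g TM (ent (A, B)) 12 = XM0 g A B 2 2 := by
  have e1 : linK g TM (ent (A, B)) 12 = g ^ 74 * A 0 0 + (g ^ 7 * A 1 1 + (g ^ 63 * A 3 3 + (g ^ 26 * A 4 4 + (g ^ 61 * B 0 0 + (g ^ 7 * B 1 1 + (g ^ 63 * B 2 2 + (g ^ 69 * B 3 3 + 0))))))) := rfl
  have e2 : XM0 g A B 2 2 = cr5 (m00 g) A 2 + cr5 (m01 g) B 2 := rfl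
  have e3 : cr5 (m00 g) A 2 = g ^ 74 * A 0 0 + g ^ 7 * A 1 1 + 0 * A 2 2 + g ^ 63 * A 3 3 + g ^ 26 * A 4 4 := by
    unfold cr5; rw [Fin.sum_univ_five]; rfl
  have e4 : cr5 (m01 g) B 2 = g ^ 61 * B 0 0 + g ^ 7 * B 1 1 + g ^ 63 * B 2 2 + g ^ 69 * B 3 3 + 0 * B 4 4 := by
    unfold cr5; rw [Fin.sum_univ_five]; rfl
  rw [e1, e2, e3, e4]; ring
theorem m0_23 (g : K) (A B : Matrix (Fin 5) (Fin 5) K) : linK g TM (ent (A, B)) 13 = XM0 g A B 2 3 := by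
  have e1 : linK g TM (ent (A, B)) 13 = g ^ 70 * A 2 3 + ((-g ^ 48) * B 3 1 + 0) := rfl
  have e2 : XM0 g A B 2 3 = g ^ 70 * A 2 3 - g ^ 48 * B 3 1 := rfl
  rw [e1, e2]; ring
theorem m0_24 (g : K) (A B : Matrix (Fin 5) (Fin 5) K) : linK g TM (ent (A, B)) 14 = XM0 g A B 2 4 := by
  have e1 : linK g TM (ent (A, B)) 14 = 0 := rfl
  have e2 : XM0 g A B 2 4 = 0 := rfl
  rw [e1, e2]
theorem m0_30 (g : K) (A B : Matrix (Fin 5) (Fin 5) K) : linK g TM (ent (A, B)) 15 = XM0 g A B 3 0 := by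
  have e1 : linK g TM (ent (A, B)) 15 = 0 := rfl
  have e2 : XM0 g A B 3 0 = 0 := rfl
  rw [e1, e2]
theorem m0_31 (g : K) (A B : Matrix (Fin 5) (Fin 5) K) : linK g TM (ent (A, B)) 16 = XM0 g A B 3 1 := by
  have e1 : linK g TM (ent (A, B)) 16 = g ^ 0 * A 3 1 + 0 := rfl
  have e2 : XM0 g A B 3 1 = A 3 1 := rfl
  rw [e1, e2]; ring
theorem m0_32 (g : K) (A B : Matrix (Fin 5) (Fin 5) K) : linK g TM (ent (A, B)) 17 = XM0 g A B 3 2 := by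
  have e1 : linK g TM (ent (A, B)) 17 = g ^ 50 * A 3 2 + ((-g ^ 32) * B 1 3 + 0) := rfl
  have e2 : XM0 g A B 3 2 = g ^ 50 * A 3 2 - g ^ 32 * B 1 3 := rfl
  rw [e1, e2]; ring
theorem m0_33 (g : K) (A B : Matrix (Fin 5) (Fin 5) K) : linK g TM (ent (A, B)) 18 = XM0 g A B 3 3 := by
  have e1 : linK g TM (ent (A, B)) 18 = g ^ 26 * A 0 0 + (g ^ 74 * A 1 1 + (g ^ 7 * A 2 2 + (g ^ 63 * A 4 4 + (g ^ 61 * B 1 1 + (g ^ 7 * B 2 2 + (g ^ 63 * B 3 3 + (g ^ 69 * B 4 4 + 0))))))) := rfl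
  have e2 : XM0 g A B 3 3 = cr5 (m00 g) A 3 + cr5 (m01 g) B 3 := rfl
  have e3 : cr5 (m00 g) A 3 = g ^ 26 * A 0 0 + g ^ 74 * A 1 1 + g ^ 7 * A 2 2 + 0 * A 3 3 + g ^ 63 * A 4 4 := by
    unfold cr5; rw [Fin.sum_univ_five]; rfl
  have e4 : cr5 (m01 g) B 3 = 0 * B 0 0 + g ^ 61 * B 1 1 + g ^ 7 * B 2 2 + g ^ 63 * B 3 3 + g ^ 69 * B 4 4 := by
    unfold cr5; rw [Fin.sum_univ_five]; rfl
  rw [e1, e2, e3, e4]; ring
theorem m0_34 (g : K) (A B : Matrix (Fin 5) (Fin 5) K) : linK g TM (ent (A, B)) 19 = XM0 g A B 3 4 := by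
  have e1 : linK g TM (ent (A, B)) 19 = g ^ 70 * A 3 4 + ((-g ^ 60) * B 4 2 + 0) := rfl
  have e2 : XM0 g A B 3 4 = g ^ 70 * A 3 4 - g ^ 60 * B 4 2 := rfl
  rw [e1, e2]; ring
theorem m0_40 (g : K) (A B : Matrix (Fin 5) (Fin 5) K) : linK g TM (ent (A, B)) 20 = XM0 g A B 4 0 := by
  have e1 : linK g TM (ent (A, B)) 20 = g ^ 70 * A 4 0 + ((-g ^ 72) * B 0 3 + 0) := rfl
  have e2 : XM0 g A B 4 0 = g ^ 70 * A 4 0 - g ^ 72 * B 0 3 := rfl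
  rw [e1, e2]; ring
theorem m0_41 (g : K) (A B : Matrix (Fin 5) (Fin 5) K) : linK g TM (ent (A, B)) 21 = XM0 g A B 4 1 := by
  have e1 : linK g TM (ent (A, B)) 21 = 0 := rfl
  have e2 : XM0 g A B 4 1 = 0 := rfl
  rw [e1, e2]
theorem m0_42 (g : K) (A B : Matrix (Fin 5) (Fin 5) K) : linK g TM (ent (A, B)) 22 = XM0 g A B 4 2 := by
  have e1 : linK g TM (ent (A, B)) 22 = g ^ 0 * A 4 2 + 0 := rfl
  have e2 : XM0 g A B 4 2 = A 4 2 := rfl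
  rw [e1, e2]; ring
theorem m0_43 (g : K) (A B : Matrix (Fin 5) (Fin 5) K) : linK g TM (ent (A, B)) 23 = XM0 g A B 4 3 := by
  have e1 : linK g TM (ent (A, B)) 23 = g ^ 50 * A 4 3 + ((-g ^ 20) * B 2 4 + 0) := rfl
  have e2 : XM0 g A B 4 3 = g ^ 50 * A 4 3 - g ^ 20 * B 2 4 := rfl
  rw [e1, e2]; ring
theorem m0_44 (g : K) (A B : Matrix (Fin 5) (Fin 5) K) : linK g TM (ent (A, B)) 24 = XM0 g A B 4 4 := by
  have e1 : linK g TM (ent (A, B)) 24 = g ^ 63 * A 0 0 + (g ^ 26 * A 1 1 + (g ^ 74 * A 2 2 + (g ^ 7 * A 3 3 + (g ^ 69 * B 0 0 + (g ^ 61 * B 2 2 + (g ^ 7 * B 3 3 + (g ^ 63 * B 4 4 + 0))))))) := rfl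
  have e2 : XM0 g A B 4 4 = cr5 (m00 g) A 4 + cr5 (m01 g) B 4 := rfl
  have e3 : cr5 (m00 g) A 4 = g ^ 63 * A 0 0 + g ^ 26 * A 1 1 + g ^ 74 * A 2 2 + g ^ 7 * A 3 3 + 0 * A 4 4 := by
    unfold cr5; rw [Fin.sum_univ_five]; rfl
  have e4 : cr5 (m01 g) B 4 = g ^ 69 * B 0 0 + 0 * B 1 1 + g ^ 61 * B 2 2 + g ^ 7 * B 3 3 + g ^ 63 * B 4 4 := by
    unfold cr5; rw [Fin.sum_univ_five]; rfl
  rw [e1, e2, e3, e4]; ring

theorem m1_00 (g : K) (A B : Matrix (Fin 5) (Fin 5) K) : linK g TM (ent (A, B)) 25 = XM1 g A B 0 0 := by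
  have e1 : linK g TM (ent (A, B)) 25 = g ^ 7 * A 0 0 + (g ^ 63 * A 1 1 + (g ^ 69 * A 2 2 + (g ^ 61 * A 4 4 + (g ^ 78 * B 1 1 + (g ^ 21 * B 2 2 + (g ^ 29 * B 3 3 + (g ^ 62 * B 4 4 + 0))))))) := rfl
  have e2 : XM1 g A B 0 0 = cr5 (m10 g) A 0 + cr5 (m11 g) B 0 := rfl
  have e3 : cr5 (m10 g) A 0 = g ^ 7 * A 0 0 + g ^ 63 * A 1 1 + g ^ 69 * A 2 2 + 0 * A 3 3 + g ^ 61 * A 4 4 := by
    unfold cr5; rw [Fin.sum_univ_five]; rfl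
  have e4 : cr5 (m11 g) B 0 = 0 * B 0 0 + g ^ 78 * B 1 1 + g ^ 21 * B 2 2 + g ^ 29 * B 3 3 + g ^ 62 * B 4 4 := by
    unfold cr5; rw [Fin.sum_univ_five]; rfl
  rw [e1, e2, e3, e4]; ring
theorem m1_01 (g : K) (A B : Matrix (Fin 5) (Fin 5) K) : linK g TM (ent (A, B)) 26 = XM1 g A B 0 1 := by
  have e1 : linK g TM (ent (A, B)) 26 = 0 := rfl
  have e2 : XM1 g A B 0 1 = 0 := rfl
  rw [e1, e2]
theorem m1_02 (g : K) (A B : Matrix (Fin 5) (Fin 5) K) : linK g TM (ent (A, B)) 27 = XM1 g A B 0 2 := by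
  have e1 : linK g TM (ent (A, B)) 27 = g ^ 70 * B 0 2 + ((-g ^ 64) * A 2 1 + 0) := rfl
  have e2 : XM1 g A B 0 2 = g ^ 70 * B 0 2 - g ^ 64 * A 2 1 := rfl
  rw [e1, e2]; ring
theorem m1_03 (g : K) (A B : Matrix (Fin 5) (Fin 5) K) : linK g TM (ent (A, B)) 28 = XM1 g A B 0 3 := by
  have e1 : linK g TM (ent (A, B)) 28 = g ^ 50 * B 0 3 + ((-g ^ 48) * A 4 0 + 0) := rfl
  have e2 : XM1 g A B 0 3 = g ^ 50 * B 0 3 - g ^ 48 * A 4 0 := rfl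
  rw [e1, e2]; ring
theorem m1_04 (g : K) (A B : Matrix (Fin 5) (Fin 5) K) : linK g TM (ent (A, B)) 29 = XM1 g A B 0 4 := by
  have e1 : linK g TM (ent (A, B)) 29 = g ^ 0 * B 0 4 + 0 := rfl
  have e2 : XM1 g A B 0 4 = B 0 4 := rfl
  rw [e1, e2]; ring
theorem m1_10 (g : K) (A B : Matrix (Fin 5) (Fin 5) K) : linK g TM (ent (A, B)) 30 = XM1 g A B 1 0 := by
  have e1 : linK g TM (ent (A, B)) 30 = g ^ 0 * B 1 0 + 0 := rfl
  have e2 : XM1 g A B 1 0 = B 1 0 := rfl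
  rw [e1, e2]; ring
theorem m1_11 (g : K) (A B : Matrix (Fin 5) (Fin 5) K) : linK g TM (ent (A, B)) 31 = XM1 g A B 1 1 := by
  have e1 : linK g TM (ent (A, B)) 31 = g ^ 61 * A 0 0 + (g ^ 7 * A 1 1 + (g ^ 63 * A 2 2 + (g ^ 69 * A 3 3 + (g ^ 62 * B 0 0 + (g ^ 78 * B 2 2 + (g ^ 21 * B 3 3 + (g ^ 29 * B 4 4 + 0))))))) := rfl
  have e2 : XM1 g A B 1 1 = cr5 (m10 g) A 1 + cr5 (m11 g) B 1 := rfl
  have e3 : cr5 (m10 g) A 1 = g ^ 61 * A 0 0 + g ^ 7 * A 1 1 + g ^ 63 * A 2 2 + g ^ 69 * A 3 3 + 0 * A 4 4 := by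
    unfold cr5; rw [Fin.sum_univ_five]; rfl
  have e4 : cr5 (m11 g) B 1 = g ^ 62 * B 0 0 + 0 * B 1 1 + g ^ 78 * B 2 2 + g ^ 21 * B 3 3 + g ^ 29 * B 4 4 := by
    unfold cr5; rw [Fin.sum_univ_five]; rfl
  rw [e1, e2, e3, e4]; ring
theorem m1_12 (g : K) (A B : Matrix (Fin 5) (Fin 5) K) : linK g TM (ent (A, B)) 32 = XM1 g A B 1 2 := by
  have e1 : linK g TM (ent (A, B)) 32 = 0 := rfl
  have e2 : XM1 g A B 1 2 = 0 := rfl
  rw [e1, e2]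
theorem m1_13 (g : K) (A B : Matrix (Fin 5) (Fin 5) K) : linK g TM (ent (A, B)) 33 = XM1 g A B 1 3 := by
  have e1 : linK g TM (ent (A, B)) 33 = g ^ 70 * B 1 3 + ((-g ^ 8) * A 3 2 + 0) := rfl
  have e2 : XM1 g A B 1 3 = g ^ 70 * B 1 3 - g ^ 8 * A 3 2 := rfl
  rw [e1, e2]; ring
theorem m1_14 (g : K) (A B : Matrix (Fin 5) (Fin 5) K) : linK g TM (ent (A, B)) 34 = XM1 g A B 1 4 := by
  have e1 : linK g TM (ent (A, B)) 34 = g ^ 50 * B 1 4 + ((-g ^ 24) * A 0 1 + 0) := rfl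
  have e2 : XM1 g A B 1 4 = g ^ 50 * B 1 4 - g ^ 24 * A 0 1 := rfl
  rw [e1, e2]; ring
theorem m1_20 (g : K) (A B : Matrix (Fin 5) (Fin 5) K) : linK g TM (ent (A, B)) 35 = XM1 g A B 2 0 := by
  have e1 : linK g TM (ent (A, B)) 35 = g ^ 50 * B 2 0 + ((-g ^ 16) * A 1 2 + 0) := rfl
  have e2 : XM1 g A B 2 0 = g ^ 50 * B 2 0 - g ^ 16 * A 1 2 := rfl
  rw [e1, e2]; ring
theorem m1_21 (g : K) (A B : Matrix (Fin 5) (Fin 5) K) : linK g TM (ent (A, B)) 36 = XM1 g A B 2 1 := by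
  have e1 : linK g TM (ent (A, B)) 36 = g ^ 0 * B 2 1 + 0 := rfl
  have e2 : XM1 g A B 2 1 = B 2 1 := rfl
  rw [e1, e2]; ring
theorem m1_22 (g : K) (A B : Matrix (Fin 5) (Fin 5) K) : linK g TM (ent (A, B)) 37 = XM1 g A B 2 2 := by
  have e1 : linK g TM (ent (A, B)) 37 = g ^ 61 * A 1 1 + (g ^ 7 * A 2 2 + (g ^ 63 * A 3 3 + (g ^ 69 * A 4 4 + (g ^ 29 * B 0 0 + (g ^ 62 * B 1 1 + (g ^ 78 * B 3 3 + (g ^ 21 * B 4 4 + 0))))))) := rfl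
  have e2 : XM1 g A B 2 2 = cr5 (m10 g) A 2 + cr5 (m11 g) B 2 := rfl
  have e3 : cr5 (m10 g) A 2 = 0 * A 0 0 + g ^ 61 * A 1 1 + g ^ 7 * A 2 2 + g ^ 63 * A 3 3 + g ^ 69 * A 4 4 := by
    unfold cr5; rw [Fin.sum_univ_five]; rfl
  have e4 : cr5 (m11 g) B 2 = g ^ 29 * B 0 0 + g ^ 62 * B 1 1 + 0 * B 2 2 + g ^ 78 * B 3 3 + g ^ 21 * B 4 4 := by
    unfold cr5; rw [Fin.sum_univ_five]; rfl
  rw [e1, e2, e3, e4]; ring
theorem m1_23 (g : K) (A B : Matrix (Fin 5) (Fin 5) K) : linK g TM (ent (A, B)) 38 = XM1 g A B 2 3 := by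
  have e1 : linK g TM (ent (A, B)) 38 = 0 := rfl
  have e2 : XM1 g A B 2 3 = 0 := rfl
  rw [e1, e2]
theorem m1_24 (g : K) (A B : Matrix (Fin 5) (Fin 5) K) : linK g TM (ent (A, B)) 39 = XM1 g A B 2 4 := by
  have e1 : linK g TM (ent (A, B)) 39 = g ^ 70 * B 2 4 + ((-g ^ 20) * A 4 3 + 0) := rfl
  have e2 : XM1 g A B 2 4 = g ^ 70 * B 2 4 - g ^ 20 * A 4 3 := rfl
  rw [e1, e2]; ring
theorem m1_30 (g : K) (A B : Matrix (Fin 5) (Fin 5) K) : linK g TM (ent (A, B)) 40 = XM1 g A B 3 0 := by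
  have e1 : linK g TM (ent (A, B)) 40 = g ^ 70 * B 3 0 + ((-g ^ 32) * A 0 4 + 0) := rfl
  have e2 : XM1 g A B 3 0 = g ^ 70 * B 3 0 - g ^ 32 * A 0 4 := rfl
  rw [e1, e2]; ring
theorem m1_31 (g : K) (A B : Matrix (Fin 5) (Fin 5) K) : linK g TM (ent (A, B)) 41 = XM1 g A B 3 1 := by
  have e1 : linK g TM (ent (A, B)) 41 = g ^ 50 * B 3 1 + ((-g ^ 72) * A 2 3 + 0) := rfl
  have e2 : XM1 g A B 3 1 = g ^ 50 * B 3 1 - g ^ 72 * A 2 3 := rfl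
  rw [e1, e2]; ring
theorem m1_32 (g : K) (A B : Matrix (Fin 5) (Fin 5) K) : linK g TM (ent (A, B)) 42 = XM1 g A B 3 2 := by
  have e1 : linK g TM (ent (A, B)) 42 = g ^ 0 * B 3 2 + 0 := rfl
  have e2 : XM1 g A B 3 2 = B 3 2 := rfl
  rw [e1, e2]; ring
theorem m1_33 (g : K) (A B : Matrix (Fin 5) (Fin 5) K) : linK g TM (ent (A, B)) 43 = XM1 g A B 3 3 := by
  have e1 : linK g TM (ent (A, B)) 43 = g ^ 69 * A 0 0 + (g ^ 61 * A 2 2 + (g ^ 7 * A 3 3 + (g ^ 63 * A 4 4 + (g ^ 21 * B 0 0 + (g ^ 29 * B 1 1 + (g ^ 62 * B 2 2 + (g ^ 78 * B 4 4 + 0))))))) := rfl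
  have e2 : XM1 g A B 3 3 = cr5 (m10 g) A 3 + cr5 (m11 g) B 3 := rfl
  have e3 : cr5 (m10 g) A 3 = g ^ 69 * A 0 0 + 0 * A 1 1 + g ^ 61 * A 2 2 + g ^ 7 * A 3 3 + g ^ 63 * A 4 4 := by
    unfold cr5; rw [Fin.sum_univ_five]; rfl
  have e4 : cr5 (m11 g) B 3 = g ^ 21 * B 0 0 + g ^ 29 * B 1 1 + g ^ 62 * B 2 2 + 0 * B 3 3 + g ^ 78 * B 4 4 := by
    unfold cr5; rw [Fin.sum_univ_five]; rfl
  rw [e1, e2, e3, e4]; ring
theorem m1_34 (g : K) (A B : Matrix (Fin 5) (Fin 5) K) : linK g TM (ent (A, B)) 44 = XM1 g A B 3 4 := by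
  have e1 : linK g TM (ent (A, B)) 44 = 0 := rfl
  have e2 : XM1 g A B 3 4 = 0 := rfl
  rw [e1, e2]
theorem m1_40 (g : K) (A B : Matrix (Fin 5) (Fin 5) K) : linK g TM (ent (A, B)) 45 = XM1 g A B 4 0 := by
  have e1 : linK g TM (ent (A, B)) 45 = 0 := rfl
  have e2 : XM1 g A B 4 0 = 0 := rfl
  rw [e1, e2]
theorem m1_41 (g : K) (A B : Matrix (Fin 5) (Fin 5) K) : linK g TM (ent (A, B)) 46 = XM1 g A B 4 1 := by
  have e1 : linK g TM (ent (A, B)) 46 = g ^ 70 * B 4 1 + ((-g ^ 56) * A 1 0 + 0) := rfl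
  have e2 : XM1 g A B 4 1 = g ^ 70 * B 4 1 - g ^ 56 * A 1 0 := rfl
  rw [e1, e2]; ring
theorem m1_42 (g : K) (A B : Matrix (Fin 5) (Fin 5) K) : linK g TM (ent (A, B)) 47 = XM1 g A B 4 2 := by
  have e1 : linK g TM (ent (A, B)) 47 = g ^ 50 * B 4 2 + ((-g ^ 60) * A 3 4 + 0) := rfl
  have e2 : XM1 g A B 4 2 = g ^ 50 * B 4 2 - g ^ 60 * A 3 4 := rfl
  rw [e1, e2]; ring
theorem m1_43 (g : K) (A B : Matrix (Fin 5) (Fin 5) K) : linK g TM (ent (A, B)) 48 = XM1 g A B 4 3 := by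
  have e1 : linK g TM (ent (A, B)) 48 = g ^ 0 * B 4 3 + 0 := rfl
  have e2 : XM1 g A B 4 3 = B 4 3 := rfl
  rw [e1, e2]; ring
theorem m1_44 (g : K) (A B : Matrix (Fin 5) (Fin 5) K) : linK g TM (ent (A, B)) 49 = XM1 g A B 4 4 := by
  have e1 : linK g TM (ent (A, B)) 49 = g ^ 63 * A 0 0 + (g ^ 69 * A 1 1 + (g ^ 61 * A 3 3 + (g ^ 7 * A 4 4 + (g ^ 78 * B 0 0 + (g ^ 21 * B 1 1 + (g ^ 29 * B 2 2 + (g ^ 62 * B 3 3 + 0))))))) := rfl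
  have e2 : XM1 g A B 4 4 = cr5 (m10 g) A 4 + cr5 (m11 g) B 4 := rfl
  have e3 : cr5 (m10 g) A 4 = g ^ 63 * A 0 0 + g ^ 69 * A 1 1 + 0 * A 2 2 + g ^ 61 * A 3 3 + g ^ 7 * A 4 4 := by
    unfold cr5; rw [Fin.sum_univ_five]; rfl
  have e4 : cr5 (m11 g) B 4 = g ^ 78 * B 0 0 + g ^ 21 * B 1 1 + g ^ 29 * B 2 2 + g ^ 62 * B 3 3 + 0 * B 4 4 := by
    unfold cr5; rw [Fin.sum_univ_five]; rfl
  rw [e1, e2, e3, e4]; ring

theorem xp_lin (g : K) (A B : Matrix (Fin 5) (Fin 5) K) : linM g TP (A, B) = (XP0 g A B, XP1 g A B) := by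
  refine mkM_eq ?_ ?_
  · intro i j
    fin_cases i <;> fin_cases j
    · exact p0_00 g A B
    · exact p0_01 g A B
    · exact p0_02 g A B
    · exact p0_03 g A B
    · exact p0_04 g A B
    · exact p0_10 g A B
    · exact p0_11 g A B
    · exact p0_12 g A B
    · exact p0_13 g A B
    · exact p0_14 g A B
    · exact p0_20 g A B
    · exact p0_21 g A B
    · exact p0_22 g A B
    · exact p0_23 g A B
    · exact p0_24 g A B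
    · exact p0_30 g A B
    · exact p0_31 g A B
    · exact p0_32 g A B
    · exact p0_33 g A B
    · exact p0_34 g A B
    · exact p0_40 g A B
    · exact p0_41 g A B
    · exact p0_42 g A B
    · exact p0_43 g A B
    · exact p0_44 g A B
  · intro i j
    fin_cases i <;> fin_cases j
    · exact p1_00 g A B
    · exact p1_01 g A B
    · exact p1_02 g A B
    · exact p1_03 g A B
    · exact p1_04 g A B
    · exact p1_10 g A B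
    · exact p1_11 g A B
    · exact p1_12 g A B
    · exact p1_13 g A B
    · exact p1_14 g A B
    · exact p1_20 g A B
    · exact p1_21 g A B
    · exact p1_22 g A B
    · exact p1_23 g A B
    · exact p1_24 g A B
    · exact p1_30 g A B
    · exact p1_31 g A B
    · exact p1_32 g A B
    · exact p1_33 g A B
    · exact p1_34 g A B
    · exact p1_40 g A B
    · exact p1_41 g A B
    · exact p1_42 g A B
    · exact p1_43 g A B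
    · exact p1_44 g A B

theorem xm_lin (g : K) (A B : Matrix (Fin 5) (Fin 5) K) : linM g TM (A, B) = (XM0 g A B, XM1 g A B) := by
  refine mkM_eq ?_ ?_
  · intro i j
    fin_cases i <;> fin_cases j
    · exact m0_00 g A B
    · exact m0_01 g A B
    · exact m0_02 g A B
    · exact m0_03 g A B
    · exact m0_04 g A B
    · exact m0_10 g A B
    · exact m0_11 g A B
    · exact m0_12 g A B
    · exact m0_13 g A B
    · exact m0_14 g A B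
    · exact m0_20 g A B
    · exact m0_21 g A B
    · exact m0_22 g A B
    · exact m0_23 g A B
    · exact m0_24 g A B
    · exact m0_30 g A B
    · exact m0_31 g A B
    · exact m0_32 g A B
    · exact m0_33 g A B
    · exact m0_34 g A B
    · exact m0_40 g A B
    · exact m0_41 g A B
    · exact m0_42 g A B
    · exact m0_43 g A B
    · exact m0_44 g A B
  · intro i j
    fin_cases i <;> fin_cases j
    · exact m1_00 g A B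
    · exact m1_01 g A B
    · exact m1_02 g A B
    · exact m1_03 g A B
    · exact m1_04 g A B
    · exact m1_10 g A B
    · exact m1_11 g A B
    · exact m1_12 g A B
    · exact m1_13 g A B
    · exact m1_14 g A B
    · exact m1_20 g A B
    · exact m1_21 g A B
    · exact m1_22 g A B
    · exact m1_23 g A B
    · exact m1_24 g A B
    · exact m1_30 g A B
    · exact m1_31 g A B
    · exact m1_32 g A B
    · exact m1_33 g A B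
    · exact m1_34 g A B
    · exact m1_40 g A B
    · exact m1_41 g A B
    · exact m1_42 g A B
    · exact m1_43 g A B
    · exact m1_44 g A B

theorem wX_rts : ∀ q ∈ wX, q.1 ∈ rts := wX_mem
theorem wXi_rts : ∀ q ∈ wXi, q.1 ∈ rts := wXi_mem

/-- **`x`** -/
theorem xp_io {g : K} (hg : g ^ 4 = 1 - g) (h3 : (3 : K) = 0) {p : Matrix (Fin 5) (Fin 5) K × Matrix (Fin 5) (Fin 5) K}
    (h0 : p.1.trace = 0) (h1 : p.2.trace = 0) :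
    prU (wMat chevE8 g wX *ᵥ iot g p) = iot g (XP0 g p.1 p.2, XP1 g p.1 p.2) := by
  rw [word_io hg h3 TP_lt wX_rts (all50 cP1 cP2) h0 h1, ← xp_lin]

/-- **`x⁻¹`** -/
theorem xm_io {g : K} (hg : g ^ 4 = 1 - g) (h3 : (3 : K) = 0) {p : Matrix (Fin 5) (Fin 5) K × Matrix (Fin 5) (Fin 5) K}
    (h0 : p.1.trace = 0) (h1 : p.2.trace = 0) :
    prU (wMat chevE8 g wXi *ᵥ iot g p) = iot g (XM0 g p.1 p.2, XM1 g p.1 p.2) := by
  rw [word_io hg h3 TM_lt wXi_rts (all50 cM1 cM2) h0 h1, ← xm_lin]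

end Cfsg.Agent.H671.E83
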